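import Mathlib
import Cfsg.Agent.Lib.Helper25.ACStmt

/-! S3912 (call by helper25) piece HATB. -/

set_option autoImplicit false

universe u

namespace Cfsg.Agent.Lib.Helper31.ACHATB

open Cfsg.Agent.Lib.Helper25.ACStmt

theorem main (h : Lift2.{u}) : HatB.{u} := by
  intro G _ _ hB K _ hK
  refine ⟨?_, ?_⟩
  · intro c d hc hd
    obtain ⟨c₀, hc₀o, hc₀⟩ := h G K hK c 2 (by rw [hc]; norm_num)
    obtain ⟨d₀, hd₀o, hd₀⟩ := h G K hK d 2 (by rw [hd]; norm_num)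
    obtain ⟨g₀, hg₀⟩ := hB (Subgroup.zpowers c₀) (Subgroup.zpowers d₀) inferInstance inferInstance
      (by rw [Nat.card_zpowers, Nat.card_zpowers, hc₀o, hd₀o])
    have h1 : Subgroup.zpowers d₀ = Subgroup.zpowers (g₀ * c₀ * g₀⁻¹) := by
      rw [hg₀, MonoidHom.map_zpowers]
      rfl
    have h2 := congrArg (Subgroup.map (QuotientGroup.mk' K)) h1
    rw [MonoidHom.map_zpowers, MonoidHom.map_zpowers, hd₀, map_mul, map_mul, map_inv, hc₀] at h2
    refine ⟨QuotientGroup.mk' K g₀, ?_⟩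
    rw [MonoidHom.map_zpowers, h2]
    rfl
  · intro huniq x y hx hy
    obtain ⟨x₀, hx₀o, hx₀⟩ := h G K hK x 1 (by rw [hx]; norm_num)
    obtain ⟨y₀, hy₀o, hy₀⟩ := h G K hK y 1 (by rw [hy]; norm_num)
    have hxy : x₀ = y₀ := huniq x₀ y₀ (by rw [hx₀o]; norm_num) (by rw [hy₀o]; norm_num)
    rw [← hx₀, ← hy₀, hxy]

end Cfsg.Agent.Lib.Helper31.ACHATB
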