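import Cfsg.Agent.Lib.Helper17.CMStmt

set_option autoImplicit false

namespace Cfsg.Agent.Lib.Helper31.CMB2

open Subgroup Cfsg.Agent.Lib.Helper17.CMStmt

universe u

theorem main : B2.{u} := by
  intro G _ _ N V hNn hR hV hnab hnpc hW v hv hv1
  obtain ⟨hZ, hN1, hco⟩ := hR
  obtain ⟨hVn, hVN, hV1, hVmin⟩ := hV
  by_contra hcon
  push Not at hcon
  have hmem : ∀ (c a : G), c ∈ centralizer ({a} : Set G) ↔ c * a = a * c := by
    intro c a
    rw [Subgroup.mem_centralizer_iff]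
    constructor
    · intro h
      exact (h a (Set.mem_singleton a)).symm
    · intro h u hu
      rw [Set.mem_singleton_iff] at hu
      rw [hu]; exact h.symm
  set H := V ⊓ centralizer ({v} : Set G) with hH
  have hvH : v ∈ H := ⟨hv, (hmem v v).mpr rfl⟩
  have h2 : ∀ h ∈ H, h ≠ 1 → centralizer ({h} : Set G) = centralizer ({v} : Set G) := by
    intro h hh hh1
    exact hcon h hh.1 hh1 ((hmem h v).mp hh.2)
  have h3 : IsAb H := by
    intro a ha b hb
    rcases eq_or_ne a 1 with rfl | ha1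
    · simp
    · have : b ∈ centralizer ({a} : Set G) := by rw [h2 a ha ha1]; exact hb.2
      exact ((hmem b a).mp this).symm
  have hMv := hco v (hVN hv) hv1
  have h4 : ¬ (centralizer ({v} : Set G)).Normal := by
    intro hn
    have hHn : H.Normal := by rw [hH]; infer_instance
    have := hW H hHn inf_le_left h3
    rw [this] at hvH
    exact hv1 (Subgroup.mem_bot.mp hvH)
  have h5 : normalizer ((centralizer ({v} : Set G) : Subgroup G) : Set G) = centralizer ({v} : Set G) := by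
    rcases eq_or_lt_of_le (Subgroup.le_normalizer (H := centralizer ({v} : Set G))) with h | h
    · exact h.symm
    · exact absurd (normalizer_eq_top_iff.mp (hMv.2 _ h)) h4
  have hov : orderOf v ≠ 1 := by rwa [Ne, orderOf_eq_one_iff]
  have hov0 : orderOf v ≠ 0 := (orderOf_pos v).ne'
  set r := (orderOf v).minFac with hr
  have hrp : r.Prime := Nat.minFac_prime hov
  have : Fact r.Prime := ⟨hrp⟩
  set h₀ := v ^ (orderOf v / r) with hh₀
  have hord : orderOf h₀ = r := orderOf_pow_orderOf_div hov0 (Nat.minFac_dvd _)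
  have hh₀H : h₀ ∈ H := H.pow_mem hvH _
  have hh₀1 : h₀ ≠ 1 := by
    intro h
    rw [h, orderOf_one] at hord
    exact hrp.one_lt.ne hord
  have hord1 : orderOf (⟨h₀, hh₀H.1⟩ : ↥V) = r := by
    rw [← hord]; exact Subgroup.orderOf_mk h₀ _
  have hpz : IsPGroup r (zpowers (⟨h₀, hh₀H.1⟩ : ↥V)) := by
    apply IsPGroup.of_card (n := 1)
    rw [Nat.card_zpowers, hord1, pow_one]
  obtain ⟨R, hRle⟩ := hpz.exists_le_sylow
  have hh₁R : (⟨h₀, hh₀H.1⟩ : ↥V) ∈ (R : Subgroup ↥V) := hRle (mem_zpowers _)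
  have : Nontrivial ↥(R : Subgroup ↥V) := by
    refine ⟨⟨⟨⟨h₀, hh₀H.1⟩, hh₁R⟩, 1, ?_⟩⟩
    intro h
    apply hh₀1
    have := congrArg (fun x : ↥(R : Subgroup ↥V) => ((x : ↥V) : G)) h
    simpa using this
  have hcn : Nontrivial (Subgroup.center ↥(R : Subgroup ↥V)) := R.2.center_nontrivial
  obtain ⟨z, hz1⟩ := exists_ne (1 : Subgroup.center ↥(R : Subgroup ↥V))
  set z₀ : G := (((z : ↥(R : Subgroup ↥V)) : ↥V) : G) with hz₀
  have hz₀V : z₀ ∈ V := (((z : ↥(R : Subgroup ↥V)) : ↥V)).2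
  have hz₀1 : z₀ ≠ 1 := by
    intro h
    apply hz1
    apply Subtype.ext; apply Subtype.ext; apply Subtype.ext; exact h
  have hzcomm : ∀ ρ : ↥V, ρ ∈ (R : Subgroup ↥V) → (ρ : G) * z₀ = z₀ * (ρ : G) := by
    intro ρ hρ
    have h1 := (Subgroup.mem_center_iff.mp z.2) ⟨ρ, hρ⟩
    have h2' := congrArg (fun x : ↥(R : Subgroup ↥V) => ((x : ↥V) : G)) h1
    simpa using h2'
  have hz₀H : z₀ ∈ H := by
    refine ⟨hz₀V, ?_⟩
    show z₀ ∈ centralizer ({v} : Set G)
    rw [← h2 h₀ hh₀H hh₀1, hmem]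
    exact (hzcomm ⟨h₀, hh₀H.1⟩ hh₁R).symm
  have hMz : centralizer ({z₀} : Set G) = centralizer ({v} : Set G) := h2 z₀ hz₀H hz₀1
  have hRH : ∀ ρ : ↥V, ρ ∈ (R : Subgroup ↥V) → (ρ : G) ∈ H := by
    intro ρ hρ
    refine ⟨ρ.2, ?_⟩
    show (ρ : G) ∈ centralizer ({v} : Set G)
    rw [← hMz, hmem]; exact hzcomm ρ hρ
  have hP : normalizer ((R : Subgroup ↥V) : Set ↥V) ≤ centralizer ((R : Subgroup ↥V) : Set ↥V) := by
    intro g hg
    have hzR : ((z : ↥(R : Subgroup ↥V)) : ↥V) ∈ (R : Subgroup ↥V) := (z : ↥(R : Subgroup ↥V)).2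
    have h6 : g * ((z : ↥(R : Subgroup ↥V)) : ↥V) * g⁻¹ ∈ (R : Subgroup ↥V) :=
      (Subgroup.mem_normalizer_iff.mp hg _).mp hzR
    have h7 : (g : G) * z₀ * (g : G)⁻¹ ∈ H := hRH _ h6
    have h8 : (g : G) * z₀ * (g : G)⁻¹ ≠ 1 := by
      intro h
      apply hz₀1
      have : z₀ = (g : G)⁻¹ * ((g : G) * z₀ * (g : G)⁻¹) * (g : G) := by group
      rw [this, h]; group
    have h9 := h2 _ h7 h8
    have hgn : (g : G) ∈ normalizer ((centralizer ({v} : Set G) : Subgroup G) : Set G) := by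
      rw [Subgroup.mem_normalizer_iff]
      intro n
      constructor
      · intro hn
        rw [← hMz, hmem] at hn
        rw [← h9, hmem]
        have : (g : G) * n * (g : G)⁻¹ * ((g : G) * z₀ * (g : G)⁻¹) = (g : G) * (n * z₀) * (g : G)⁻¹ := by
          group
        rw [this, hn]; group
      · intro hn
        rw [← h9, hmem] at hn
        rw [← hMz, hmem]
        have h10 : n * z₀ = (g : G)⁻¹ * ((g : G) * n * (g : G)⁻¹ * ((g : G) * z₀ * (g : G)⁻¹)) * (g : G) := by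
          group
        rw [h10, hn]; group
    rw [h5] at hgn
    have hgH : (g : G) ∈ H := ⟨g.2, hgn⟩
    rw [Subgroup.mem_centralizer_iff]
    intro ρ hρ
    apply Subtype.ext
    exact h3 _ (hRH ρ hρ) _ hgH
  have hcompl := MonoidHom.ker_transferSylow_isComplement' R hP
  have hr_dvd : r ∣ Nat.card ↥V := by
    rw [← hord1]; exact orderOf_dvd_natCard _
  exact hnpc r hrp hr_dvd ⟨R, (MonoidHom.transferSylow R hP).ker, inferInstance, hcompl⟩

end Cfsg.Agent.Lib.Helper31.CMB2
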