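import Cfsg.Agent.Lib.Helper17.CMStmt

set_option autoImplicit false

namespace Cfsg.Agent.Lib.Helper31.CMCASE1

open Subgroup Cfsg.Agent.Lib.Helper17.CMStmt

universe u

section
variable {G : Type u} [Group G] (N : Subgroup G)

/-- the commutator `a b a⁻¹ b⁻¹`. -/
def cc (a b : G) : G := a * b * a⁻¹ * b⁻¹

theorem cc_mul (a n m : G) (hn : n ∈ N) (hm : cc a m ∈ centralizer (N : Set G)) :
    cc a (n * m) = cc a n * cc a m := by
  have h1 : n * cc a m = cc a m * n := (mem_centralizer_iff.mp hm) n hn
  have h2 : cc a (n * m) = cc a n * (n * cc a m) * n⁻¹ := by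
    unfold cc; group
  rw [h2, h1]; group

theorem cc_pow (a n : G) (hn : n ∈ N) (h : ∀ m ∈ N, cc a m ∈ centralizer (N : Set G)) (k : ℕ) :
    cc a (n ^ k) = cc a n ^ k := by
  induction k with
  | zero => simp [cc]
  | succ k ih =>
    rw [pow_succ, cc_mul N a (n ^ k) n (N.pow_mem hn k) (h n hn), ih, pow_succ]

theorem cc_inv (a b : G) : (cc a b)⁻¹ = cc b a := by
  unfold cc; group

theorem cc_pow_left (a n : G) (ha : a ∈ N) (h : ∀ m ∈ N, cc n m ∈ centralizer (N : Set G)) (k : ℕ) :
    cc (a ^ k) n = cc a n ^ k := by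
  rw [← cc_inv n (a ^ k), cc_pow N n a ha h k, ← inv_pow, cc_inv]

theorem cc_eq_one_iff (a b : G) : cc a b = 1 ↔ a * b = b * a := by
  unfold cc
  constructor
  · intro h
    have : a * b = (a * b * a⁻¹ * b⁻¹) * (b * a) := by group
    rw [this, h, one_mul]
  · intro h
    rw [h]; group

end

theorem main : Case1.{u} := by
  intro G _ _ N hN hH hab
  have hCn : (centralizer (N : Set G)).Normal := inferInstance
  set C := centralizer (N : Set G) with hCdef
  have hcc : ∀ a ∈ N, ∀ b ∈ N, cc a b ∈ C := hab
  have hmemC : ∀ x : G, x ∈ C ↔ ∀ n ∈ N, n * x = x * n := fun x => mem_centralizer_iff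
  have hcen : ∀ x g : G, g ∈ centralizer ({x} : Set G) ↔ x * g = g * x := by
    intro x g
    rw [mem_centralizer_iff]
    constructor
    · intro h; exact h x rfl
    · intro h y hy
      rw [Set.mem_singleton_iff] at hy
      rw [hy]; exact h
  -- Lemma A1
  have hA1 : ∀ x ∈ N, x ∉ C → ∀ r : ℕ, x ^ r ∉ C → ∀ n ∈ N, cc n x ^ r = 1 → cc n x = 1 := by
    intro x hx hxC r hxr n hn hpow
    have hle : centralizer ({x} : Set G) ≤ centralizer ({x ^ r} : Set G) := by
      intro g hg
      rw [hcen] at hg ⊢
      exact ((Commute.pow_left (show Commute x g from hg) r)).eq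
    have heq : centralizer ({x} : Set G) = centralizer ({x ^ r} : Set G) := by
      rcases eq_or_lt_of_le hle with h | h
      · exact h
      · exact absurd ((hH x hx hxC).2 _ h) (hH _ (N.pow_mem hx r) hxr).1
    have h1 : cc n (x ^ r) = 1 := by
      rw [cc_pow N n x hx (hcc n hn) r, hpow]
    have h2 : n ∈ centralizer ({x} : Set G) := by
      rw [heq, hcen]
      exact ((cc_eq_one_iff n (x ^ r)).mp h1).symm
    rw [hcen] at h2
    exact (cc_eq_one_iff n x).mpr h2.symm
  -- Lemma A2
  have hone : ∀ x : G, (QuotientGroup.mk' C x = 1 ↔ x ∈ C) := by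
    intro x
    exact QuotientGroup.eq_one_iff x
  have hA2 : ∀ x ∈ N, x ∉ C → (orderOf (QuotientGroup.mk' C x)).Prime := by
    intro x hx hxC
    by_contra hnp
    set o := orderOf (QuotientGroup.mk' C x) with ho
    have ho1 : o ≠ 1 := by
      intro h
      rw [ho, orderOf_eq_one_iff, hone] at h
      exact hxC h
    have hxo : x ^ o ∈ C := by
      rw [← hone, map_pow, ho, pow_orderOf_eq_one]
    have hprime : ∀ r : ℕ, r.Prime → r ∣ o → x ^ r ∉ C := by
      intro r hr hro hxr
      rw [← hone, map_pow] at hxr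
      have h1 : o ∣ r := orderOf_dvd_of_pow_eq_one hxr
      rcases (Nat.dvd_prime hr).mp h1 with h | h
      · exact ho1 h
      · exact hnp (h ▸ hr)
    have hind : ∀ d : ℕ, d ∣ o → ∀ n ∈ N, cc n x ^ d = 1 → cc n x = 1 := by
      intro d
      induction d using Nat.strong_induction_on with
      | _ d ih =>
        intro hd n hn hpow
        rcases eq_or_ne d 1 with h1 | h1
        · rw [h1, pow_one] at hpow; exact hpow
        · have hr := Nat.minFac_prime h1
          obtain ⟨d', hd'⟩ := Nat.minFac_dvd d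
          have hd0 : d ≠ 0 := by
            rintro rfl
            have : o = 0 := Nat.eq_zero_of_zero_dvd hd
            have hpos : 0 < o := orderOf_pos _
            omega
          have hd'pos : 0 < d' := by
            rcases Nat.eq_zero_or_pos d' with h | h
            · rw [h, mul_zero] at hd'; exact absurd hd' hd0
            · exact h
          have hlt : d' < d := by
            have h2 := hr.two_le
            calc d' < d.minFac * d' := by nlinarith
              _ = d := hd'.symm
          have hd'o : d' ∣ o := (Dvd.intro_left _ hd'.symm).trans hd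
          have h3 : cc (n ^ d') x ^ d.minFac = 1 := by
            rw [cc_pow_left N n x hn (hcc x hx) d', ← pow_mul, mul_comm, ← hd']
            exact hpow
          have h4 : cc (n ^ d') x = 1 :=
            hA1 x hx hxC d.minFac (hprime _ hr ((Nat.minFac_dvd d).trans hd)) _ (N.pow_mem hn d') h3
          rw [cc_pow_left N n x hn (hcc x hx) d'] at h4
          exact ih d' hlt hd'o n hn h4
    apply hxC
    rw [hmemC]
    intro n hn
    have h1 : cc n x ^ o = 1 := by
      rw [← cc_pow N n x hx (hcc n hn) o, cc_eq_one_iff]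
      exact ((hmemC _).mp hxo) n hn
    exact (cc_eq_one_iff n x).mp (hind o dvd_rfl n hn h1)
  -- Step B
  have hB : ∀ x ∈ N, x ∉ C → ∀ y ∈ N, y ∉ C →
      orderOf (QuotientGroup.mk' C x) = orderOf (QuotientGroup.mk' C y) := by
    intro x hx hxC y hy hyC
    by_contra hne
    have hr := hA2 x hx hxC
    have hs := hA2 y hy hyC
    have hcomm : Commute (QuotientGroup.mk' C x) (QuotientGroup.mk' C y) := by
      have h1 : QuotientGroup.mk' C (cc x y) = 1 := (hone _).mpr (hcc x hx y hy)
      unfold cc at h1
      rw [map_mul, map_mul, map_mul, map_inv, map_inv] at h1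
      show QuotientGroup.mk' C x * QuotientGroup.mk' C y = QuotientGroup.mk' C y * QuotientGroup.mk' C x
      calc QuotientGroup.mk' C x * QuotientGroup.mk' C y
          = (QuotientGroup.mk' C x * QuotientGroup.mk' C y * (QuotientGroup.mk' C x)⁻¹ *
              (QuotientGroup.mk' C y)⁻¹) * (QuotientGroup.mk' C y * QuotientGroup.mk' C x) := by group
        _ = QuotientGroup.mk' C y * QuotientGroup.mk' C x := by rw [h1, one_mul]
    have hcop : (orderOf (QuotientGroup.mk' C x)).Coprime (orderOf (QuotientGroup.mk' C y)) :=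
      (Nat.coprime_primes hr hs).mpr hne
    have hord := hcomm.orderOf_mul_eq_mul_orderOf_of_coprime hcop
    rw [← map_mul] at hord
    by_cases hxy : x * y ∈ C
    · have h1 : orderOf (QuotientGroup.mk' C (x * y)) = 1 := by
        rw [orderOf_eq_one_iff, hone]; exact hxy
      rw [h1] at hord
      have := hr.two_le
      have := hs.two_le
      nlinarith
    · have h1 := hA2 (x * y) (N.mul_mem hx hy) hxy
      rw [hord] at h1
      exact Nat.not_prime_mul hr.one_lt.ne' hs.one_lt.ne' h1
  by_cases hex : ∃ x ∈ N, x ∉ C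
  · obtain ⟨x₀, hx₀, hx₀C⟩ := hex
    refine ⟨orderOf (QuotientGroup.mk' C x₀), hA2 x₀ hx₀ hx₀C, ?_⟩
    intro x hx
    by_cases hxC : x ∈ C
    · exact C.pow_mem hxC _
    · rw [← hone, map_pow, hB x₀ hx₀ hx₀C x hx hxC, pow_orderOf_eq_one]
  · push Not at hex
    exact ⟨2, Nat.prime_two, fun x hx => C.pow_mem (hex x hx) 2⟩

end Cfsg.Agent.Lib.Helper31.CMCASE1
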