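import Cfsg.Agent.Lib.Helper17.CMStmt

set_option autoImplicit false

namespace Cfsg.Agent.Lib.Helper31.CMCENT

open Subgroup Cfsg.Agent.Lib.Helper17.CMStmt

universe u

/-- `T_x = {g | g x g⁻¹ x⁻¹ ∈ C}` for a normal subgroup `C`. -/
def TT {G : Type u} [Group G] (C : Subgroup G) [hC : C.Normal] (x : G) : Subgroup G where
  carrier := {g | g * x * g⁻¹ * x⁻¹ ∈ C}
  one_mem' := by
    show (1 : G) * x * 1⁻¹ * x⁻¹ ∈ C
    simp
  mul_mem' := by
    intro g h hg hh
    show (g * h) * x * (g * h)⁻¹ * x⁻¹ ∈ C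
    have h1 : (g * h) * x * (g * h)⁻¹ * x⁻¹ = g * (h * x * h⁻¹ * x⁻¹) * g⁻¹ * (g * x * g⁻¹ * x⁻¹) := by
      group
    rw [h1]
    exact C.mul_mem (hC.conj_mem _ hh g) hg
  inv_mem' := by
    intro g hg
    show g⁻¹ * x * g⁻¹⁻¹ * x⁻¹ ∈ C
    have h1 : g⁻¹ * x * g⁻¹⁻¹ * x⁻¹ = g⁻¹ * (g * x * g⁻¹ * x⁻¹)⁻¹ * g⁻¹⁻¹ := by group
    rw [h1]
    exact hC.conj_mem _ (C.inv_mem hg) g⁻¹

theorem mem_TT {G : Type u} [Group G] (C : Subgroup G) [hC : C.Normal] (x g : G) :
    g ∈ TT C x ↔ g * x * g⁻¹ * x⁻¹ ∈ C := Iff.rfl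

theorem main : Cent.{u} := by
  intro G _ _ N hN hH hab
  have hCn : (centralizer (N : Set G)).Normal := inferInstance
  set C := centralizer (N : Set G) with hCdef
  -- basic facts
  have hMT : ∀ x : G, centralizer ({x} : Set G) ≤ TT C x := by
    intro x g hg
    rw [mem_TT]
    have h1 : x * g = g * x := (mem_centralizer_iff.mp hg) x rfl
    have h2 : g * x * g⁻¹ * x⁻¹ = 1 := by
      rw [← h1]; group
    rw [h2]; exact C.one_mem
  have hdich : ∀ x ∈ N, x ∉ C → TT C x ≠ ⊤ → TT C x = centralizer ({x} : Set G) := by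
    intro x hx hxC hne
    rcases eq_or_lt_of_le (hMT x) with h | h
    · exact h.symm
    · exact absurd ((hH x hx hxC).2 _ h) hne
  have hTC : ∀ x ∈ C, TT C x = ⊤ := by
    intro x hx
    rw [eq_top_iff]
    intro g _
    rw [mem_TT]
    have h1 : g * x * g⁻¹ * x⁻¹ = (g * x * g⁻¹) * x⁻¹ := by group
    rw [h1]
    exact C.mul_mem (hCn.conj_mem _ hx g) (C.inv_mem hx)
  have hmul : ∀ y : G, TT C y = ⊤ → ∀ x : G, TT C (x * y) = TT C x := by
    intro y hy x
    ext g
    rw [mem_TT, mem_TT]
    have hgy : g * y * g⁻¹ * y⁻¹ ∈ C := by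
      rw [← mem_TT, hy]; trivial
    have h1 : g * (x * y) * g⁻¹ * (x * y)⁻¹ = (g * x * g⁻¹ * x⁻¹) * (x * (g * y * g⁻¹ * y⁻¹) * x⁻¹) := by
      group
    rw [h1]
    exact C.mul_mem_cancel_right (hCn.conj_mem _ hgy x)
  have hcomm_of : ∀ x : G, ∀ g : G, g ∈ centralizer ({x} : Set G) → x * g = g * x := by
    intro x g hg
    exact (mem_centralizer_iff.mp hg) x rfl
  -- part (b)
  have hb : ∀ x ∈ N, x ∉ C → TT C x ≠ ⊤ → ∀ z ∈ N, z ∈ C → z ∈ center G := by
    intro x hx hxC hne z hzN hzC
    have hTx := hdich x hx hxC hne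
    have hxzN : x * z ∈ N := N.mul_mem hx hzN
    have hxzC : x * z ∉ C := by
      intro h
      apply hxC
      have : x = (x * z) * z⁻¹ := by group
      rw [this]
      exact C.mul_mem h (C.inv_mem hzC)
    have hle : centralizer ({x * z} : Set G) ≤ centralizer ({x} : Set G) := by
      intro g hg
      rw [← hTx, mem_TT]
      have h1 : (x * z) * g = g * (x * z) := hcomm_of _ g hg
      have h2 : g * x * g⁻¹ * x⁻¹ = x * (z * (g * z⁻¹ * g⁻¹)) * x⁻¹ := by
        have : g * x * g⁻¹ * x⁻¹ = (g * (x * z)) * z⁻¹ * g⁻¹ * x⁻¹ := by group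
        rw [this, ← h1]; group
      rw [h2]
      exact hCn.conj_mem _ (C.mul_mem hzC (hCn.conj_mem _ (C.inv_mem hzC) g)) x
    have heq : centralizer ({x * z} : Set G) = centralizer ({x} : Set G) := by
      rcases eq_or_lt_of_le hle with h | h
      · exact h
      · exact absurd ((hH _ hxzN hxzC).2 _ h) (hH x hx hxC).1
    have hMz : centralizer ({x} : Set G) ≤ centralizer ({z} : Set G) := by
      intro m hm
      have h1 : x * m = m * x := hcomm_of _ m hm
      have h2 : (x * z) * m = m * (x * z) := hcomm_of _ m (by rw [heq]; exact hm)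
      rw [mem_centralizer_iff]
      intro h hh
      rw [Set.mem_singleton_iff] at hh
      rw [hh]
      have : x * (z * m) = x * (m * z) := by
        rw [← mul_assoc, h2, ← mul_assoc, ← h1, mul_assoc]
      exact mul_left_cancel this
    have hNz : N ≤ centralizer ({z} : Set G) := by
      intro n hn
      rw [mem_centralizer_iff]
      intro h hh
      rw [Set.mem_singleton_iff] at hh
      rw [hh]
      exact ((mem_centralizer_iff.mp hzC) n hn).symm
    have hnot : ¬ N ≤ centralizer ({x} : Set G) := by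
      intro h
      apply hxC
      rw [hCdef, mem_centralizer_iff]
      intro n hn
      exact ((hcomm_of x n (h hn))).symm
    have htop : N ⊔ centralizer ({x} : Set G) = ⊤ := by
      apply (hH x hx hxC).2
      refine lt_of_le_of_ne le_sup_right ?_
      intro h
      apply hnot
      rw [h]; exact le_sup_left
    have hall : (⊤ : Subgroup G) ≤ centralizer ({z} : Set G) := by
      rw [← htop]; exact sup_le hNz hMz
    rw [mem_center_iff]
    intro g
    have := hcomm_of z g (hall (mem_top g))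
    exact this.symm
  obtain ⟨a, ha, b, hb', habC⟩ := hab
  have hbC : b ∉ C := by
    intro h
    apply habC
    have h1 : a * b = b * a := (mem_centralizer_iff.mp h) a ha
    have h2 : a * b * a⁻¹ * b⁻¹ = 1 := by rw [h1]; group
    rw [h2]; exact C.one_mem
  have hTb : TT C b ≠ ⊤ := by
    intro h
    apply habC
    rw [← mem_TT, h]; trivial
  refine ⟨?_, ?_⟩
  · rintro z ⟨hzN, hzC⟩
    exact hb b hb' hbC hTb z hzN hzC
  · -- (d)
    have hkey : ∀ y ∈ N, y ∉ C → TT C y ≠ ⊤ := by
      intro y hy hyC hTy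
      have step1 : ∀ x ∈ N, TT C x ≠ ⊤ → x * y = y * x := by
        intro x hx hTx
        have hxC : x ∉ C := fun h => hTx (hTC x h)
        have h1 := hdich x hx hxC hTx
        have h2 : TT C (x * y) = TT C x := hmul y hTy x
        have hxyT : TT C (x * y) ≠ ⊤ := by rw [h2]; exact hTx
        have hxyC : x * y ∉ C := fun h => hxyT (hTC _ h)
        have h3 := hdich (x * y) (N.mul_mem hx hy) hxyC hxyT
        have hx1 : x ∈ centralizer ({x * y} : Set G) := by
          rw [← h3, h2, h1, mem_centralizer_iff]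
          intro h hh
          rw [Set.mem_singleton_iff] at hh
          rw [hh]
        have h4 : (x * y) * x = x * (x * y) := hcomm_of _ x hx1
        have : x * (y * x) = x * (x * y) := by rw [← mul_assoc, h4]
        exact (mul_left_cancel this).symm
      have step2 : ∀ x ∈ N, x * y = y * x := by
        intro x hx
        by_cases hTx : TT C x = ⊤
        · have h2 : TT C (b * x) = TT C b := hmul x hTx b
          have hbx : (b * x) * y = y * (b * x) :=
            step1 (b * x) (N.mul_mem hb' hx) (by rw [h2]; exact hTb)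
          have hby : b * y = y * b := step1 b hb' hTb
          have : b * (x * y) = b * (y * x) := by
            rw [← mul_assoc, hbx, ← mul_assoc, ← hby, mul_assoc]
          exact mul_left_cancel this
        · exact step1 x hx hTx
      apply hyC
      rw [hCdef, mem_centralizer_iff]
      intro n hn
      exact step2 n hn
    intro x hx hxC g hg
    have hT := hdich x hx hxC (hkey x hx hxC)
    have hg' : g ∈ TT C x := (mem_TT C x g).mpr hg
    rw [hT] at hg'
    exact (hcomm_of x g hg').symm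

end Cfsg.Agent.Lib.Helper31.CMCENT
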