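import Mathlib
import Cfsg.Agent.Lib.Helper88.CNStmt

/-! S5155 piece GCONJ: conjugation by `Aut_F(Y)` preserves `Aut_{C_F(T)}(P)` for `P ≤ Y`. -/

set_option autoImplicit false

namespace Cfsg.Agent.Lib.Helper31.CNGCONJ

open Cfsg Cfsg.FusionSystem Cfsg.Agent.H85 Cfsg.Agent.Lib.Helper88.CNStmt

universe u

/-- A homomorphism on `A ⊔ B` mapping `A` and `B` into `C` maps `A ⊔ B` into `C`. -/
theorem map_sup_mem {Ω : Type u} [Group Ω] {A B C : Subgroup Ω} (φ : ↥(A ⊔ B) →* Ω)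
    (hA : ∀ (x : Ω) (hx : x ∈ A), φ ⟨x, Subgroup.mem_sup_left hx⟩ ∈ C)
    (hB : ∀ (x : Ω) (hx : x ∈ B), φ ⟨x, Subgroup.mem_sup_right hx⟩ ∈ C)
    (z : ↥(A ⊔ B)) : φ z ∈ C := by
  have hle : A ⊔ B ≤ (C.comap φ).map (A ⊔ B).subtype := by
    refine sup_le ?_ ?_
    · intro x hx
      exact ⟨⟨x, Subgroup.mem_sup_left hx⟩, hA x hx, rfl⟩
    · intro x hx
      exact ⟨⟨x, Subgroup.mem_sup_right hx⟩, hB x hx, rfl⟩
  obtain ⟨w, hw, hwz⟩ := hle z.2
  have e : w = z := Subtype.ext hwz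
  subst e
  exact hw

theorem main (hE : ExtOverT.{u}) : CentConj.{u} := by
  intro Ω _ S _ p _ hS F hsat T hT Y hY hYc G hG P hPY α hα γ hγ
  have hYS : Y ≤ S := hYc.1
  have hTS : T ≤ S := hT.1
  have hPC : P ≤ centralizerIn S T := hPY.trans hY
  have hP'Y : autImage α P ≤ Y := autImage_le α P
  have hP'C : autImage α P ≤ centralizerIn S T := hP'Y.trans hY
  rw [mem_autGroup_iff G hP'C, hG]
  rw [mem_autGroup_iff G hPC, hG] at hγ
  obtain ⟨hγF, -, -, γ', hγ', hγ'P, hγ'T⟩ := hγ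
  have hαF := (mem_autGroup_iff F hYS α).mp hα
  obtain ⟨α', hα', hα'Y⟩ := hE p hS F hsat T hT Y hY hYc Y le_rfl _ hαF
  have hle1 : P ⊔ T ≤ T ⊔ Y := sup_le (hPY.trans le_sup_right) le_sup_left
  have ha1 : α'.comp (Subgroup.inclusion hle1) ∈ F.Hom (P ⊔ T) := restrict_mem F hα' hle1
  generalize ha1def : α'.comp (Subgroup.inclusion hle1) = a1 at ha1
  have ha1P : ∀ (x : P) (h : (x : Ω) ∈ P ⊔ T), a1 ⟨x, h⟩ = ((α ⟨x, hPY x.2⟩ : Y) : Ω) := by
    intro x h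
    rw [← ha1def]
    exact hα'Y ⟨x, hPY x.2⟩
  have ha1T : ∀ (t : Ω) (_ : t ∈ T) (h : t ∈ P ⊔ T), a1 ⟨t, h⟩ ∈ T := by
    intro t ht h
    exact hT.2 T le_rfl _ (restrict_mem F ha1 le_sup_right) ⟨t, ht⟩
  have hfin : Finite T :=
    Finite.of_injective (Subgroup.inclusion hTS) (Subgroup.inclusion_injective hTS)
  have ha1Tsurj : ∀ t ∈ T, ∃ (t₀ : Ω) (h : t₀ ∈ P ⊔ T), t₀ ∈ T ∧ a1 ⟨t₀, h⟩ = t := by
    have hf : Function.Injective
        (fun t : T => (⟨a1 ⟨t, Subgroup.mem_sup_right t.2⟩, ha1T t t.2 _⟩ : T)) := by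
      intro s t hst
      have h1 : a1 ⟨s, Subgroup.mem_sup_right s.2⟩ = a1 ⟨t, Subgroup.mem_sup_right t.2⟩ :=
        congrArg Subtype.val hst
      have h2 := F.injective_of_mem ha1 h1
      exact Subtype.ext (congrArg (fun z : ↥(P ⊔ T) => (z : Ω)) h2)
    intro t ht
    obtain ⟨t₀, ht₀⟩ := Finite.surjective_of_injective hf ⟨t, ht⟩
    exact ⟨t₀, Subgroup.mem_sup_right t₀.2, t₀.2, congrArg Subtype.val ht₀⟩
  have hrange : autImage α P ⊔ T ≤ a1.range := by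
    refine sup_le ?_ ?_
    · intro y hy
      obtain ⟨x, rfl⟩ := exists_of_mem_autImage α hPY hy
      exact ⟨⟨x, Subgroup.mem_sup_left x.2⟩, ha1P x _⟩
    · intro t ht
      obtain ⟨t₀, h, -, e⟩ := ha1Tsurj t ht
      exact ⟨⟨t₀, h⟩, e⟩
  obtain ⟨ι, hι, hιx⟩ := inv_mem' F ha1 hrange
  have hιmem : ∀ y : ↥(autImage α P ⊔ T), ι y ∈ P ⊔ T := by
    intro y
    obtain ⟨x, hx⟩ := hrange y.2
    have hx' : a1 x ∈ autImage α P ⊔ T := by rw [hx]; exact y.2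
    have e : y = ⟨a1 x, hx'⟩ := Subtype.ext hx.symm
    rw [e, hιx]
    exact x.2
  have hγ'mem : ∀ z : ↥(P ⊔ T), γ' z ∈ P ⊔ T := by
    refine map_sup_mem γ' ?_ ?_
    · intro x hx
      have e : γ' ⟨x, Subgroup.mem_sup_left hx⟩ = ((γ ⟨x, hx⟩ : P) : Ω) := hγ'P ⟨x, hx⟩
      rw [e]; exact Subgroup.mem_sup_left (γ ⟨x, hx⟩).2
    · intro x hx
      have e : γ' ⟨x, Subgroup.mem_sup_right hx⟩ = x := hγ'T ⟨x, hx⟩
      rw [e]; exact Subgroup.mem_sup_right hx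
  have h2 := F.comp_mem hι hγ' hιmem
  have h2mem : ∀ y : ↥(autImage α P ⊔ T),
      (γ'.comp (ι.codRestrict (P ⊔ T) hιmem)) y ∈ P ⊔ T := fun y => hγ'mem _
  have h3 := F.comp_mem h2 ha1 h2mem
  have hext : ∀ x : autImage α P,
      (a1.comp ((γ'.comp (ι.codRestrict (P ⊔ T) hιmem)).codRestrict (P ⊔ T) h2mem))
        (Subgroup.inclusion le_sup_left x) =
      ((autImage α P).subtype.comp (MulAut.congr (autRes α hPY) γ).toMonoidHom) x := by
    intro x'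
    obtain ⟨x, rfl⟩ := (autRes α hPY).surjective x'
    have hx1 : a1 ⟨x, Subgroup.mem_sup_left x.2⟩ ∈ autImage α P ⊔ T := by
      rw [ha1P]; exact Subgroup.mem_sup_left (mem_autImage α hPY x)
    have e0 : (⟨a1 ⟨x, Subgroup.mem_sup_left x.2⟩, hx1⟩ : ↥(autImage α P ⊔ T)) =
        Subgroup.inclusion le_sup_left (autRes α hPY x) := Subtype.ext (ha1P x _)
    have e1 := hιx ⟨x, Subgroup.mem_sup_left x.2⟩ hx1
    rw [e0] at e1
    have e2 : (ι.codRestrict (P ⊔ T) hιmem) (Subgroup.inclusion le_sup_left (autRes α hPY x)) =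
        ⟨x, Subgroup.mem_sup_left x.2⟩ := Subtype.ext e1
    have e3 : ((γ'.comp (ι.codRestrict (P ⊔ T) hιmem)).codRestrict (P ⊔ T) h2mem)
        (Subgroup.inclusion le_sup_left (autRes α hPY x)) =
        ⟨((γ x : P) : Ω), Subgroup.mem_sup_left (γ x).2⟩ := by
      apply Subtype.ext
      show γ' ((ι.codRestrict (P ⊔ T) hιmem) (Subgroup.inclusion le_sup_left (autRes α hPY x))) = _
      rw [e2]
      exact hγ'P x
    show a1 (((γ'.comp (ι.codRestrict (P ⊔ T) hιmem)).codRestrict (P ⊔ T) h2mem)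
        (Subgroup.inclusion le_sup_left (autRes α hPY x))) =
      (((autRes α hPY) (γ ((autRes α hPY).symm (autRes α hPY x))) : autImage α P) : Ω)
    rw [e3, ha1P (γ x), MulEquiv.symm_apply_apply, coe_autRes]
  have hfixT : ∀ t : T,
      (a1.comp ((γ'.comp (ι.codRestrict (P ⊔ T) hιmem)).codRestrict (P ⊔ T) h2mem))
        (Subgroup.inclusion le_sup_right t) = t := by
    intro t
    obtain ⟨t₀, h, ht₀, e⟩ := ha1Tsurj t t.2
    have hx1 : a1 ⟨t₀, h⟩ ∈ autImage α P ⊔ T := by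
      rw [e]; exact Subgroup.mem_sup_right t.2
    have e0 : (⟨a1 ⟨t₀, h⟩, hx1⟩ : ↥(autImage α P ⊔ T)) =
        Subgroup.inclusion le_sup_right t := Subtype.ext e
    have e1 := hιx ⟨t₀, h⟩ hx1
    rw [e0] at e1
    have e2 : (ι.codRestrict (P ⊔ T) hιmem) (Subgroup.inclusion le_sup_right t) =
        ⟨t₀, h⟩ := Subtype.ext e1
    have e3 : ((γ'.comp (ι.codRestrict (P ⊔ T) hιmem)).codRestrict (P ⊔ T) h2mem)
        (Subgroup.inclusion le_sup_right t) = ⟨t₀, h⟩ := by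
      apply Subtype.ext
      show γ' ((ι.codRestrict (P ⊔ T) hιmem) (Subgroup.inclusion le_sup_right t)) = _
      rw [e2]
      exact hγ'T ⟨t₀, ht₀⟩
    show a1 (((γ'.comp (ι.codRestrict (P ⊔ T) hιmem)).codRestrict (P ⊔ T) h2mem)
        (Subgroup.inclusion le_sup_right t)) = _
    rw [e3, e]
  refine ⟨?_, hP'C, fun x => hP'C ((MulAut.congr (autRes α hPY) γ) x).2, _, h3, hext, hfixT⟩
  exact hom_congr F (restrict_mem F h3 le_sup_left) (fun x => (hext x).symm)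

end Cfsg.Agent.Lib.Helper31.CNGCONJ
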