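import Mathlib
import Cfsg.Agent.Lib.Helper32.D8Stmt
import Cfsg.Agent.Lib.Helper26.GenChar
import Cfsg.Agent.Lib.Helper3.Irr
import Cfsg.Agent.Lib.Helper77.DihLat
import Cfsg.Agent.Lib.CT.Ops
import Cfsg.Agent.Lib.CT.ClassMult

/-! S3716 piece TRI: a generalized character of norm 6 `1 + 2εχ + ε'W` vanishing at `1, u, v`. -/

set_option autoImplicit false
set_option linter.style.haveILetI false

namespace Cfsg.Agent.Lib.Helper31.D8TRI

open Cfsg Cfsg.Agent.Lib.CT Cfsg.Agent.Lib.CT.Wedderburn Cfsg.Agent.Lib.Helper26.GenChar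
open Cfsg.Agent.Lib.Helper32 Cfsg.Agent.Lib.Helper3.Irr
open scoped ComplexConjugate

universe u

/-- `bb` of `1 + cx χ + cw W`. -/
theorem bb_eq {G : Type u} [Group G] [Fintype G] (Φ χ W : G → ℂ) (cx cw : ℂ)
    (hχ : IsIrrCharacter G χ) (hW : IsIrrCharacter G W)
    (hΦ' : ∀ g, Φ g = 1 + cx * χ g + cw * W g) (u v : G) :
    D8Stmt.bb Φ u v = 1 + cx * (χ u * χ v / χ 1) + cw * (W u * W v / W 1) := by
  unfold D8Stmt.bb
  simp only [hΦ']
  rw [Finset.sum_add_distrib, Finset.sum_add_distrib, ← Finset.mul_sum, ← Finset.mul_sum,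
    ClassMult.irr_schur_average hχ u v, ClassMult.irr_schur_average hW u v, Finset.sum_const,
    Finset.card_univ, Nat.card_eq_fintype_card]
  have hG : (Fintype.card G : ℂ) ≠ 0 := by exact_mod_cast Fintype.card_ne_zero
  have h1 := IsIrrCharacter.apply_one_ne_zero hχ
  have h2 := IsIrrCharacter.apply_one_ne_zero hW
  simp only [nsmul_eq_mul, mul_one]
  field_simp

/-- the algebraic identity behind TRI. -/
theorem bb_formula (c1 A B W1 Wu Wv cx cw : ℂ) (hc1 : c1 ≠ 0) (hW1 : W1 ≠ 0) (hcw : cw ≠ 0)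
    (e1 : 0 = 1 + cx * c1 + cw * W1) (eu : 0 = 1 + cx * A + cw * Wu)
    (ev : 0 = 1 + cx * B + cw * Wv) :
    1 + cx * (A * B / c1) + cw * (Wu * Wv / W1)
      = cx / (c1 * (1 + cx * c1)) * ((c1 - A) * (c1 - B)) := by
  have h3 : cw * (Wu * Wv / W1) = (cw * Wu) * (cw * Wv) / (cw * W1) := by field_simp
  have p1 : cw * W1 = -(1 + cx * c1) := by linear_combination -e1
  have pu : cw * Wu = -(1 + cx * A) := by linear_combination -eu
  have pv : cw * Wv = -(1 + cx * B) := by linear_combination -ev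
  have hne : 1 + cx * c1 ≠ 0 := by
    intro h
    have : cw * W1 = 0 := by rw [p1, h, neg_zero]
    exact mul_ne_zero hcw hW1 this
  rw [h3, p1, pu, pv]
  field_simp
  ring

theorem main : D8Stmt.TRI.{u} := by
  intro G _ _ Φ χ u v hΦ h1 hnorm hu hv htriv hχ hχt hmult
  classical
  haveI := finite_irrCharacter G
  haveI := Fintype.ofFinite (IrrCharacter G)
  obtain ⟨c, hc, he⟩ := exists_int_mult hΦ
  have hsq := classInner_self_eq_sum_sq c hc he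
  rw [hnorm] at hsq
  have hsq' : ∑ ψ : IrrCharacter G, c ψ * c ψ = 6 := by exact_mod_cast hsq.symm
  obtain ⟨t₀, ht₀⟩ : ∃ t₀ : IrrCharacter G, (t₀ : G → ℂ) = D8Stmt.triv G :=
    ⟨⟨fun _ => (1 : ℂ), Ops.isIrrCharacter_one⟩, rfl⟩
  have hct : c t₀ = 1 := by
    have h2 := hc t₀
    rw [ht₀, htriv] at h2
    exact_mod_cast h2.symm
  obtain ⟨x₀, hx₀⟩ : ∃ x₀ : IrrCharacter G, (x₀ : G → ℂ) = χ := ⟨⟨χ, hχ⟩, rfl⟩
  have hx0 : x₀ ≠ t₀ := by
    intro h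
    apply hχt
    rw [← hx₀, h, ht₀]
  have hcx : c x₀ = 2 ∨ c x₀ = -2 := by
    have h2 := hc x₀
    rw [hx₀] at h2
    rcases hmult with h | h
    · left
      rw [h] at h2
      exact_mod_cast h2.symm
    · right
      rw [h] at h2
      exact_mod_cast h2.symm
  have hx0mem : x₀ ∈ Finset.univ.erase t₀ := Finset.mem_erase.mpr ⟨hx0, Finset.mem_univ x₀⟩
  have hrest : ∑ ψ ∈ (Finset.univ.erase t₀).erase x₀, c ψ * c ψ = 1 := by
    have e1 := Finset.add_sum_erase Finset.univ (fun ψ => c ψ * c ψ) (Finset.mem_univ t₀)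
    have e2 : c x₀ * c x₀ + ∑ ψ ∈ (Finset.univ.erase t₀).erase x₀, c ψ * c ψ
        = ∑ ψ ∈ Finset.univ.erase t₀, c ψ * c ψ :=
      Finset.add_sum_erase (Finset.univ.erase t₀) (fun ψ => c ψ * c ψ) hx0mem
    simp only [hsq', hct] at e1
    rcases hcx with h | h <;> rw [h] at e2 <;> linarith
  obtain ⟨w, hwT, hw⟩ := Cfsg.Agent.Lib.Helper77.DihLat.exists_ne_zero _ c
    (by rw [hrest]; norm_num)
  have e3 : c w * c w + ∑ ψ ∈ ((Finset.univ.erase t₀).erase x₀).erase w, c ψ * c ψ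
      = ∑ ψ ∈ (Finset.univ.erase t₀).erase x₀, c ψ * c ψ :=
    Finset.add_sum_erase ((Finset.univ.erase t₀).erase x₀) (fun ψ => c ψ * c ψ) hwT
  have n3 := Cfsg.Agent.Lib.Helper77.DihLat.sum_sq_nonneg
    (((Finset.univ.erase t₀).erase x₀).erase w) c
  have hcw : c w = 1 ∨ c w = -1 := by
    have h2 : c w * c w ≤ 1 := by linarith
    have h3 : -1 ≤ c w := by nlinarith
    have h4 : c w ≤ 1 := by nlinarith
    omega
  have hrest0 : ∑ ψ ∈ (((Finset.univ.erase t₀).erase x₀).erase w), c ψ * c ψ = 0 := by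
    rcases hcw with h | h <;> rw [h] at e3 <;> linarith
  have hzero := Cfsg.Agent.Lib.Helper77.DihLat.all_zero _ c hrest0
  have hΦ' : ∀ g, Φ g = 1 + (c x₀ : ℂ) * χ g + (c w : ℂ) * (w : G → ℂ) g := by
    intro g
    have h2 := congrFun he g
    rw [Finset.sum_apply] at h2
    rw [h2, ← Finset.add_sum_erase _ _ (Finset.mem_univ t₀), ← Finset.add_sum_erase _ _ hx0mem,
      ← Finset.add_sum_erase _ _ hwT]
    rw [Finset.sum_eq_zero, add_zero]
    · simp only [Pi.smul_apply, smul_eq_mul, hct, ht₀, hx₀, D8Stmt.triv]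
      push_cast
      ring
    · intro ψ hψ
      rw [hzero ψ hψ]
      simp
  have hcw0 : ((c w : ℤ) : ℂ) ≠ 0 := by exact_mod_cast hw
  have hcx0 : ((c x₀ : ℤ) : ℂ) ≠ 0 := by
    rcases hcx with h | h <;> rw [h] <;> norm_num
  have hc1 := IsIrrCharacter.apply_one_ne_zero hχ
  have hW1 := IsIrrCharacter.apply_one_ne_zero w.2
  have e1 : (0 : ℂ) = 1 + (c x₀ : ℂ) * χ 1 + (c w : ℂ) * (w : G → ℂ) 1 := by rw [← hΦ' 1, h1]
  have eu : (0 : ℂ) = 1 + (c x₀ : ℂ) * χ u + (c w : ℂ) * (w : G → ℂ) u := by rw [← hΦ' u, hu]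
  have ev : (0 : ℂ) = 1 + (c x₀ : ℂ) * χ v + (c w : ℂ) * (w : G → ℂ) v := by rw [← hΦ' v, hv]
  have hne : 1 + (c x₀ : ℂ) * χ 1 ≠ 0 := by
    intro h
    have : (c w : ℂ) * (w : G → ℂ) 1 = 0 := by linear_combination -h - e1
    exact mul_ne_zero hcw0 hW1 this
  have huu : D8Stmt.bb Φ u u = (c x₀ : ℂ) / (χ 1 * (1 + (c x₀ : ℂ) * χ 1))
      * ((χ 1 - χ u) * (χ 1 - χ u)) := by
    rw [bb_eq Φ χ (w : G → ℂ) _ _ hχ w.2 hΦ' u u]
    exact bb_formula _ _ _ _ _ _ _ _ hc1 hW1 hcw0 e1 eu eu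
  have huv : D8Stmt.bb Φ u v = (c x₀ : ℂ) / (χ 1 * (1 + (c x₀ : ℂ) * χ 1))
      * ((χ 1 - χ u) * (χ 1 - χ v)) := by
    rw [bb_eq Φ χ (w : G → ℂ) _ _ hχ w.2 hΦ' u v]
    exact bb_formula _ _ _ _ _ _ _ _ hc1 hW1 hcw0 e1 eu ev
  have hvv : D8Stmt.bb Φ v v = (c x₀ : ℂ) / (χ 1 * (1 + (c x₀ : ℂ) * χ 1))
      * ((χ 1 - χ v) * (χ 1 - χ v)) := by
    rw [bb_eq Φ χ (w : G → ℂ) _ _ hχ w.2 hΦ' v v]
    exact bb_formula _ _ _ _ _ _ _ _ hc1 hW1 hcw0 e1 ev ev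
  refine ⟨?_, ?_⟩
  · rw [huu, huv, hvv]
    ring
  · intro h0
    rw [huu] at h0
    have hκ : (c x₀ : ℂ) / (χ 1 * (1 + (c x₀ : ℂ) * χ 1)) ≠ 0 :=
      div_ne_zero hcx0 (mul_ne_zero hc1 hne)
    rcases mul_eq_zero.mp h0 with h | h
    · exact absurd h hκ
    · have h' : χ 1 - χ u = 0 := by
        rcases mul_eq_zero.mp h with h | h <;> exact h
      exact (sub_eq_zero.mp h').symm

end Cfsg.Agent.Lib.Helper31.D8TRI
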