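import Mathlib
import Cfsg.Agent.Lib.Helper26.J3Stmt

/-! S3366 piece FR3: uniqueness and existence of the normal form on `R`. -/

set_option autoImplicit false

namespace Cfsg.Agent.Lib.Helper31.J3FR3

open Cfsg.Agent.Lib.Helper26.J3Stmt

universe u

/-- conjugation of `r1 ^ a * r2 ^ b` by `r1` and by `r2` when the commutator is central. -/
theorem conj_pow_pow {X : Type u} [Group X] (r1 r2 w : X) (hw : w = r1 * r2 * r1⁻¹ * r2⁻¹)
    (hc : ∀ x : X, x * w = w * x) (a b : ℕ) :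
    r1 * (r1 ^ a * r2 ^ b) * r1⁻¹ = w ^ b * (r1 ^ a * r2 ^ b) ∧
      r2 * (r1 ^ a * r2 ^ b) * r2⁻¹ = (w⁻¹) ^ a * (r1 ^ a * r2 ^ b) := by
  have h1 : MulAut.conj r1 r2 = w * r2 := by rw [MulAut.conj_apply, hw]; group
  have h2 : MulAut.conj r2 r1 = w⁻¹ * r1 := by rw [MulAut.conj_apply, hw]; group
  have h11 : MulAut.conj r1 r1 = r1 := by rw [MulAut.conj_apply]; group
  have h22 : MulAut.conj r2 r2 = r2 := by rw [MulAut.conj_apply]; group
  have hcw : ∀ x : X, Commute w x := fun x => (hc x).symm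
  constructor
  · have e1 : MulAut.conj r1 (r1 ^ a * r2 ^ b) = r1 ^ a * (w * r2) ^ b := by
      rw [map_mul, map_pow, map_pow, h11, h1]
    rw [MulAut.conj_apply] at e1
    rw [e1, (hcw r2).mul_pow, ← mul_assoc, ← mul_assoc]
    congr 1
    exact ((hcw (r1 ^ a)).pow_left b).eq.symm
  · have e1 : MulAut.conj r2 (r1 ^ a * r2 ^ b) = (w⁻¹ * r1) ^ a * r2 ^ b := by
      rw [map_mul, map_pow, map_pow, h22, h2]
    rw [MulAut.conj_apply] at e1
    rw [e1, ((hcw r1).inv_left).mul_pow, mul_assoc]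

/-- conjugating a product with a central factor. -/
theorem conj_central {X : Type u} [Group X] (x P ζ : X) (hζ : ∀ y : X, y * ζ = ζ * y) :
    x * (P * ζ) * x⁻¹ = x * P * x⁻¹ * ζ := by
  calc x * (P * ζ) * x⁻¹ = x * P * (ζ * x⁻¹) := by group
    _ = x * P * (x⁻¹ * ζ) := by rw [hζ x⁻¹]
    _ = x * P * x⁻¹ * ζ := by group

theorem cancel_aux {X : Type u} [Group X] (x P ζ P' ζ' g g' : X)
    (hζ : ∀ y : X, y * ζ = ζ * y) (hζ' : ∀ y : X, y * ζ' = ζ' * y) (h : P * ζ = P' * ζ')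
    (e : x * P * x⁻¹ = g * P) (e' : x * P' * x⁻¹ = g' * P') : g = g' := by
  have e1 : x * (P * ζ) * x⁻¹ = g * (P * ζ) := by rw [conj_central x P ζ hζ, e, mul_assoc]
  have e2 : x * (P' * ζ') * x⁻¹ = g' * (P' * ζ') := by
    rw [conj_central x P' ζ' hζ', e', mul_assoc]
  rw [h] at e1
  exact mul_right_cancel (e1.symm.trans e2)

theorem main : FR3.{u} := by
  intro X _ hH hZ r1 hr1 r2 hr2 hne
  obtain ⟨hfin, -, hcard, hexp, -, -, -⟩ := hH
  obtain ⟨-, hZR, hcomm, -, hZcentral⟩ := hZ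
  have : Fact (Nat.Prime 3) := ⟨by norm_num⟩
  obtain ⟨w, hw⟩ : ∃ w : X, w = r1 * r2 * r1⁻¹ * r2⁻¹ := ⟨_, rfl⟩
  have hwZ : w ∈ Zc X := by rw [hw]; exact hcomm r1 hr1 r2 hr2
  have hwc : ∀ x : X, x * w = w * x := hZcentral w hwZ
  have hw1 : w ≠ 1 := by
    intro h
    apply hne
    have h1 : r1 * r2 = w * (r2 * r1) := by rw [hw]; group
    rw [h1, h, one_mul]
  have hw3 : w ^ 3 = 1 := hexp w (hZR hwZ)
  have hord : orderOf w = 3 := orderOf_eq_prime hw3 hw1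
  have hordi : orderOf w⁻¹ = 3 := by rw [orderOf_inv, hord]
  have hval : ∀ {x y : ZMod 3} {g : X}, orderOf g = 3 → g ^ x.val = g ^ y.val → x = y := by
    intro x y g hg h
    have h1 : x.val ≡ y.val [MOD 3] := by
      have h2 := pow_eq_pow_iff_modEq.mp h
      rw [hg] at h2
      exact h2
    exact ZMod.val_injective 3 (Nat.ModEq.eq_of_lt_of_lt h1 (ZMod.val_lt x) (ZMod.val_lt y))
  -- the central factor
  have hζZ : ∀ (u : V) (c : ZMod 3), w ^ (u 0 * u 1).val * (w⁻¹) ^ c.val ∈ Zc X := fun u c =>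
    (Zc X).mul_mem ((Zc X).pow_mem hwZ _) ((Zc X).pow_mem ((Zc X).inv_mem hwZ) _)
  have hform : ∀ (u : V) (c : ZMod 3), iotaOf r1 r2 u * zOf r1 r2 ^ c.val =
      (r1 ^ (u 0).val * r2 ^ (u 1).val) * (w ^ (u 0 * u 1).val * (w⁻¹) ^ c.val) := by
    intro u c
    unfold iotaOf zOf
    rw [← hw, mul_assoc]
  have key : ∀ (u u' : V) (c c' : ZMod 3),
      iotaOf r1 r2 u * zOf r1 r2 ^ c.val = iotaOf r1 r2 u' * zOf r1 r2 ^ c'.val →
        u = u' ∧ c = c' := by
    intro u u' c c' h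
    have h' := h
    rw [hform, hform] at h'
    have hζ := hZcentral _ (hζZ u c)
    have hζ' := hZcentral _ (hζZ u' c')
    have hb : w ^ (u 1).val = w ^ (u' 1).val :=
      cancel_aux r1 _ _ _ _ _ _ hζ hζ' h' (conj_pow_pow r1 r2 w hw hwc _ _).1
        (conj_pow_pow r1 r2 w hw hwc _ _).1
    have ha : (w⁻¹) ^ (u 0).val = (w⁻¹) ^ (u' 0).val :=
      cancel_aux r2 _ _ _ _ _ _ hζ hζ' h' (conj_pow_pow r1 r2 w hw hwc _ _).2
        (conj_pow_pow r1 r2 w hw hwc _ _).2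
    have h0 : u 0 = u' 0 := hval hordi ha
    have h1 : u 1 = u' 1 := hval hord hb
    have huu : u = u' := by
      funext i
      fin_cases i
      · exact h0
      · exact h1
    refine ⟨huu, ?_⟩
    subst huu
    have hz := mul_left_cancel h
    unfold zOf at hz
    rw [← hw] at hz
    exact hval hordi hz
  refine ⟨key, ?_⟩
  intro r hr
  have hmem : ∀ p : V × ZMod 3, iotaOf r1 r2 p.1 * zOf r1 r2 ^ p.2.val ∈ R X := by
    intro p
    rw [hform]
    exact (R X).mul_mem ((R X).mul_mem ((R X).pow_mem hr1 _) ((R X).pow_mem hr2 _))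
      (hZR (hζZ p.1 p.2))
  have hinj : Function.Injective
      (fun p : V × ZMod 3 => (⟨iotaOf r1 r2 p.1 * zOf r1 r2 ^ p.2.val, hmem p⟩ : R X)) := by
    intro p p' h
    have h1 := key p.1 p'.1 p.2 p'.2 (congrArg Subtype.val h)
    exact Prod.ext h1.1 h1.2
  have hcardV : Nat.card (V × ZMod 3) = 27 := by
    rw [Nat.card_eq_fintype_card]
    rfl
  have hbij := Function.Injective.bijective_of_nat_card_le hinj (by rw [hcard, hcardV])
  obtain ⟨⟨u, c⟩, h⟩ := hbij.2 ⟨r, hr⟩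
  exact ⟨u, c, (congrArg Subtype.val h).symm⟩

end Cfsg.Agent.Lib.Helper31.J3FR3
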