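import Mathlib
import Cfsg.Agent.Lib.Helper88.MCStmt
import Cfsg.Agent.S4037

/-!
S4245 / EVENB (call by helper88): `B ⊴ A` cyclic of even order, `A` of prime power index in `G`:
the normal closure of the involution of `B` is a nontrivial solvable normal subgroup of `G`
(Kazarin, landed S4037).
-/

set_option autoImplicit false

namespace Cfsg.Agent.Lib.Helper31.MCEVENB

universe u

open Cfsg.Agent.Lib.Helper88.MCStmt

theorem ncard_carrier_eq_index' {G : Type*} [Group G] (x : G) :
    (ConjClasses.mk x).carrier.ncard = (Subgroup.centralizer ({x} : Set G)).index := by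
  rw [← ConjAct.orbit_eq_carrier_conjClasses, ← MulAction.index_stabilizer,
    Subgroup.centralizer_eq_comap_stabilizer]
  exact (Subgroup.index_comap_of_surjective _ (ConjAct.toConjAct (G := G)).surjective).symm

theorem main : EvenB.{u} := by
  intro G _ _ A p s hp hidx B hBn hBc hev
  have : Fact (Nat.Prime 2) := ⟨Nat.prime_two⟩
  obtain ⟨z, hz⟩ := exists_prime_orderOf_dvd_card' (G := ↥B) 2 (even_iff_two_dvd.mp hev)
  have hz1 : z ≠ 1 := by
    intro h
    rw [h, orderOf_one] at hz
    norm_num at hz
  -- `z` is central in `A`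
  have hcent : ∀ a : A, a * (z : A) * a⁻¹ = (z : A) := by
    intro a
    obtain ⟨m, hm⟩ := MonoidHom.map_cyclic ((MulAut.conjNormal a : MulAut B).toMonoidHom)
    have h1 : (MulAut.conjNormal a : MulAut B) z = z ^ m := hm z
    have h2 : ((MulAut.conjNormal a : MulAut B) z : A) = a * (z : A) * a⁻¹ :=
      MulAut.conjNormal_apply a z
    have h3 : z ^ m = z ^ (m % 2) := by
      have := zpow_mod_orderOf z m
      rw [hz] at this
      exact_mod_cast this.symm
    have h4 : (MulAut.conjNormal a : MulAut B) z ≠ 1 := by
      intro h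
      apply hz1
      have := (MulAut.conjNormal a : MulAut B).injective (h.trans (map_one _).symm)
      exact this
    rcases Int.emod_two_eq_zero_or_one m with h5 | h5
    · rw [h1, h3, h5, zpow_zero] at h4
      exact absurd rfl h4
    · rw [← h2, h1, h3, h5, zpow_one]
  have hzG1 : ((z : A) : G) ≠ 1 := by
    intro h
    apply hz1
    apply Subtype.ext
    apply Subtype.ext
    simpa using h
  have hle : A ≤ Subgroup.centralizer ({((z : A) : G)} : Set G) := by
    intro a ha
    rw [Subgroup.mem_centralizer_singleton_iff]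
    have h1 := hcent ⟨a, ha⟩
    have h2 : a * ((z : A) : G) * a⁻¹ = ((z : A) : G) := by
      have := congrArg (Subtype.val) h1
      simpa using this
    calc a * ((z : A) : G) = a * ((z : A) : G) * a⁻¹ * a := by group
      _ = ((z : A) : G) * a := by rw [h2]
  obtain ⟨j, -, hj⟩ : ∃ j, j ≤ s ∧
      (Subgroup.centralizer ({((z : A) : G)} : Set G)).index = p ^ j := by
    have h1 := Subgroup.index_dvd_of_le hle
    rw [hidx] at h1
    exact (Nat.dvd_prime_pow hp).mp h1
  have hcls : (ConjClasses.mk ((z : A) : G)).carrier.ncard = p ^ j := by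
    rw [ncard_carrier_eq_index', hj]
  refine ⟨Subgroup.normalClosure ({((z : A) : G)} : Set G), Subgroup.normalClosure_normal, ?_,
    Cfsg.Agent.S4037.result ((z : A) : G) hp j hcls⟩
  intro h
  apply hzG1
  have hmem : ((z : A) : G) ∈ Subgroup.normalClosure ({((z : A) : G)} : Set G) :=
    Subgroup.subset_normalClosure (Set.mem_singleton _)
  rw [h] at hmem
  exact Subgroup.mem_bot.mp hmem

end Cfsg.Agent.Lib.Helper31.MCEVENB
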