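import Mathlib
import Cfsg.Agent.Lib.Helper44.PGStmt
import Cfsg.Agent.Lib.Helper40.SSConj

/-! S2474 piece SQFU: a matrix of `p`-power order commuting with a matrix with squarefree
characteristic polynomial is trivial. -/

set_option autoImplicit false

namespace Cfsg.Agent.Lib.Helper31.PGSQFU

open Polynomial Cfsg.Agent.Lib.Helper40.SSConj

universe u

section lin
variable {F : Type*} [Field F] {V : Type*} [AddCommGroup V] [Module F V]

/-- `aeval` of the restriction to an invariant submodule. -/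
theorem aeval_restrict_apply (φ : Module.End F V) (W : Submodule F V)
    (hW : W ∈ φ.invtSubmodule) (g : F[X]) (w : W) :
    ((aeval (φ.restrict hW) g) w : V) = aeval φ g (w : V) := by
  induction g using Polynomial.induction_on generalizing w with
  | C a => simp [Module.algebraMap_end_apply]
  | add p q hp hq =>
    rw [map_add, map_add, LinearMap.add_apply, LinearMap.add_apply, Submodule.coe_add, hp, hq]
  | monomial n a ih =>
    have e1 : aeval (φ.restrict hW) (C a * X ^ (n + 1)) =
        aeval (φ.restrict hW) (C a * X ^ n) * (φ.restrict hW) := by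
      rw [pow_succ, ← mul_assoc, map_mul, aeval_X]
    have e2 : aeval φ (C a * X ^ (n + 1)) = aeval φ (C a * X ^ n) * φ := by
      rw [pow_succ, ← mul_assoc, map_mul, aeval_X]
    rw [e1, e2, Module.End.mul_apply, Module.End.mul_apply, ih]
    rfl

/-- An endomorphism commuting with `φ` commutes with the polynomials in `φ`. -/
theorem aeval_comm (φ δ : Module.End F V) (h : δ * φ = φ * δ) (g : F[X]) :
    δ * aeval φ g = aeval φ g * δ := by
  induction g using Polynomial.induction_on with
  | C a =>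
    rw [aeval_C]
    exact (Algebra.commutes a δ).symm
  | add p q hp hq => rw [map_add, mul_add, add_mul, hp, hq]
  | monomial n a ih =>
    rw [pow_succ, ← mul_assoc, map_mul, aeval_X, ← mul_assoc, ih, mul_assoc, h, mul_assoc]

/-- A nilpotent endomorphism commuting with an endomorphism with squarefree characteristic
polynomial is zero. -/
theorem nilp_eq_zero [FiniteDimensional F V] (φ δ : Module.End F V)
    (hsq : Squarefree φ.charpoly) (hc : δ * φ = φ * δ) (k : ℕ) (hk : δ ^ k = 0) : δ = 0 := by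
  classical
  by_contra hδ
  -- Step 1: a nonzero square-zero endomorphism commuting with `φ`
  obtain ⟨E₀, hE₀0, hE₀E₀, hE₀c⟩ :
      ∃ E : Module.End F V, E ≠ 0 ∧ E * E = 0 ∧ E * φ = φ * E := by
    have hex : ∃ k, δ ^ k = 0 := ⟨k, hk⟩
    have hfind : δ ^ Nat.find hex = 0 := Nat.find_spec hex
    have hmin : ∀ j, j < Nat.find hex → δ ^ j ≠ 0 := fun j hj => Nat.find_min hex hj
    rcases hn : Nat.find hex with _ | _ | j
    · rw [hn, pow_zero] at hfind
      exact absurd (by rw [← mul_one δ, hfind, mul_zero]) hδ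
    · rw [hn, pow_one] at hfind
      exact absurd hfind hδ
    · refine ⟨δ ^ (j + 1), hmin (j + 1) (by omega), ?_, ?_⟩
      · rw [← pow_add]
        have e : j + 1 + (j + 1) = (j + 1 + 1) + j := by ring
        rw [e, pow_add, ← hn, hfind, zero_mul]
      · have hcm : Commute δ φ := hc
        exact (hcm.pow_left (j + 1))
  -- Step 2: the ideal of polynomials killing `E₀`
  let I : Ideal F[X] :=
    { carrier := {g | aeval φ g * E₀ = 0}
      add_mem' := by
        intro a b ha hb
        change aeval φ a * E₀ = 0 at ha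
        change aeval φ b * E₀ = 0 at hb
        change aeval φ (a + b) * E₀ = 0
        rw [map_add, add_mul, ha, hb, add_zero]
      zero_mem' := by
        change aeval φ (0 : F[X]) * E₀ = 0
        rw [map_zero, zero_mul]
      smul_mem' := by
        intro c a ha
        change aeval φ a * E₀ = 0 at ha
        change aeval φ (c * a) * E₀ = 0
        rw [map_mul, mul_assoc, ha, mul_zero] }
  have hImem : ∀ g, g ∈ I ↔ aeval φ g * E₀ = 0 := fun g => Iff.rfl
  obtain ⟨m, hm⟩ := (IsPrincipalIdealRing.principal I).principal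
  have hIm : ∀ g, aeval φ g * E₀ = 0 ↔ m ∣ g := by
    intro g
    rw [← hImem, hm]
    exact Ideal.mem_span_singleton
  have hmc : m ∣ φ.charpoly := by
    rw [← hIm, LinearMap.aeval_self_charpoly, zero_mul]
  have hc0 : φ.charpoly ≠ 0 := (LinearMap.charpoly_monic φ).ne_zero
  have hm0 : m ≠ 0 := fun h => hc0 (by rw [h] at hmc; exact zero_dvd_iff.mp hmc)
  have hmu : ¬ IsUnit m := by
    intro hu
    have h1 : aeval φ (1 : F[X]) * E₀ = 0 := (hIm 1).mpr hu.dvd
    rw [map_one, one_mul] at h1
    exact hE₀0 h1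
  obtain ⟨f, hf, hfm⟩ := WfDvdMonoid.exists_irreducible_factor hmu hm0
  obtain ⟨m', hm'⟩ := hfm
  have hm'0 : m' ≠ 0 := fun h => hm0 (by rw [hm', h, mul_zero])
  have hm'I : aeval φ m' * E₀ ≠ 0 := by
    intro h
    obtain ⟨t, ht⟩ := (hIm m').mp h
    have e : m' * 1 = m' * (f * t) := by
      rw [mul_one]
      calc m' = m * t := ht
        _ = m' * (f * t) := by rw [hm']; ring
    have := mul_left_cancel₀ hm'0 e
    exact hf.not_isUnit (IsUnit.of_mul_eq_one t this.symm)
  -- the new square-zero endomorphism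
  obtain ⟨E, hEdef⟩ : ∃ E : Module.End F V, E = aeval φ m' * E₀ := ⟨_, rfl⟩
  have hE0 : E ≠ 0 := by rw [hEdef]; exact hm'I
  have hEc : E * φ = φ * E := by
    rw [hEdef, mul_assoc, hE₀c, ← mul_assoc, ← mul_assoc]
    congr 1
    exact (aeval_comm φ φ rfl m').symm
  have hEcomm : ∀ g : F[X], E * aeval φ g = aeval φ g * E := aeval_comm φ E hEc
  have hEE : E * E = 0 := by
    rw [hEdef, mul_assoc, ← mul_assoc E₀, aeval_comm φ E₀ hE₀c m', mul_assoc, hE₀E₀, mul_zero,
      mul_zero]
  have hfE : aeval φ f * E = 0 := by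
    rw [hEdef, ← mul_assoc, ← map_mul, ← hm']
    exact (hIm m).mpr dvd_rfl
  -- Step 3: the coprime splitting of the characteristic polynomial
  obtain ⟨c', hc'⟩ : f ∣ φ.charpoly := dvd_trans ⟨m', hm'⟩ hmc
  have hcop : IsCoprime f c' := by
    rw [hf.coprime_iff_not_dvd]
    intro hd
    exact hf.not_isUnit (hsq f (by rw [hc']; exact mul_dvd_mul_left f hd))
  have hdisj : Disjoint (LinearMap.ker (aeval φ f)) (LinearMap.ker (aeval φ c')) :=
    disjoint_ker_aeval_of_isCoprime φ hcop
  have hsup : LinearMap.ker (aeval φ f) ⊔ LinearMap.ker (aeval φ c') = ⊤ := by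
    rw [sup_ker_aeval_eq_ker_aeval_mul_of_coprime φ hcop, ← hc', LinearMap.aeval_self_charpoly,
      LinearMap.ker_zero]
  have hinv : ∀ g : F[X], LinearMap.ker (aeval φ g) ∈ φ.invtSubmodule := by
    intro g x hx
    rw [Submodule.mem_comap, LinearMap.mem_ker]
    have h1 : aeval φ g (φ x) = (aeval φ g * φ) x := rfl
    rw [h1, ← aeval_comm φ φ rfl g, Module.End.mul_apply, LinearMap.mem_ker.mp hx, map_zero]
  obtain ⟨W, hWdef⟩ : ∃ W : Submodule F V, W = LinearMap.ker (aeval φ f) := ⟨_, rfl⟩
  obtain ⟨W', hW'def⟩ : ∃ W' : Submodule F V, W' = LinearMap.ker (aeval φ c') := ⟨_, rfl⟩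
  have hW : W ∈ φ.invtSubmodule := by rw [hWdef]; exact hinv f
  have hW' : W' ∈ φ.invtSubmodule := by rw [hW'def]; exact hinv c'
  have hdisj' : Disjoint W W' := by rw [hWdef, hW'def]; exact hdisj
  have hsup' : W ⊔ W' = ⊤ := by rw [hWdef, hW'def]; exact hsup
  have hcompl : IsCompl W W' := ⟨hdisj', codisjoint_iff.mpr hsup'⟩
  have hmemW : ∀ x : V, x ∈ W ↔ aeval φ f x = 0 := by
    intro x; rw [hWdef, LinearMap.mem_ker]
  have hmemW' : ∀ x : V, x ∈ W' ↔ aeval φ c' x = 0 := by
    intro x; rw [hW'def, LinearMap.mem_ker]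
  -- Step 4: the dimension of `W` is at most the degree of `f`
  have hmul := charpoly_eq_mul φ W W' hW hW' hcompl
  have hcop1 : IsCoprime (φ.restrict hW).charpoly c' := by
    refine isCoprime_of_irreducible_dvd ?_ ?_
    · intro h
      exact (LinearMap.charpoly_monic (φ.restrict hW)).ne_zero h.1
    · intro z hz hz1 hz2
      obtain ⟨v, hv, hzv⟩ := exists_ker_of_dvd_charpoly (φ.restrict hW) z hz hz1
      obtain ⟨t, ht⟩ := hz2
      have h1 : aeval (φ.restrict hW) c' v = 0 := by
        rw [ht, mul_comm z t, map_mul, Module.End.mul_apply, hzv, map_zero]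
      have h2 : aeval φ c' (v : V) = 0 := by
        rw [← aeval_restrict_apply φ W hW c' v, h1]
        rfl
      have h3 : (v : V) ∈ W ⊓ W' := ⟨v.2, (hmemW' _).mpr h2⟩
      rw [hdisj'.eq_bot] at h3
      exact hv (Subtype.ext ((Submodule.mem_bot F).mp h3))
  have hdvd1 : (φ.restrict hW).charpoly ∣ f := by
    refine hcop1.dvd_of_dvd_mul_right ?_
    rw [← hc', hmul]
    exact dvd_mul_right _ _
  have hdimW : Module.finrank F W ≤ f.natDegree := by
    rw [← LinearMap.charpoly_natDegree (φ.restrict hW)]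
    exact natDegree_le_of_dvd hdvd1 hf.ne_zero
  -- Step 5: `W` is cyclic, generated by any nonzero vector of the range of `E`
  obtain ⟨u, hu⟩ : ∃ u : V, E u ≠ 0 := by
    by_contra h
    push Not at h
    exact hE0 (LinearMap.ext h)
  have hvW : aeval φ f (E u) = 0 := by
    have h1 : aeval φ f (E u) = (aeval φ f * E) u := rfl
    rw [h1, hfE]
    rfl
  have hZW : LinearMap.range (ev φ (E u)) ≤ W := by
    rintro _ ⟨g, rfl⟩
    rw [hmemW, ev_apply]
    have h1 : aeval φ f (aeval φ g (E u)) = (aeval φ (g * f)) (E u) := by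
      rw [mul_comm g f, map_mul]
      rfl
    rw [h1, map_mul, Module.End.mul_apply, hvW, map_zero]
  obtain ⟨ε, -⟩ := model_iso φ (E u) hu f hf hvW
  have hdimZ : Module.finrank F (LinearMap.range (ev φ (E u))) = f.natDegree := by
    rw [← ε.finrank_eq, (AdjoinRoot.powerBasis hf.ne_zero).finrank]
    exact AdjoinRoot.powerBasis_dim hf.ne_zero
  have hZeq : LinearMap.range (ev φ (E u)) = W :=
    Submodule.eq_of_le_of_finrank_le hZW (by rw [hdimZ]; exact hdimW)
  -- Step 6: `E` kills `W` and `W'`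
  have hkW : W ≤ LinearMap.ker E := by
    intro w hw
    rw [← hZeq] at hw
    obtain ⟨g, rfl⟩ := hw
    rw [LinearMap.mem_ker, ev_apply]
    have h1 : E (aeval φ g (E u)) = (E * aeval φ g * E) u := rfl
    rw [h1, hEcomm g, mul_assoc, hEE, mul_zero]
    rfl
  have hkW' : W' ≤ LinearMap.ker E := by
    intro w hw
    rw [LinearMap.mem_ker]
    have h1 : E w ∈ W := by
      rw [hmemW]
      have h2 : aeval φ f (E w) = (aeval φ f * E) w := rfl
      rw [h2, hfE]
      rfl
    have h2 : E w ∈ W' := by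
      rw [hmemW']
      have h3 : aeval φ c' (E w) = (aeval φ c' * E) w := rfl
      rw [h3, ← hEcomm c', Module.End.mul_apply, (hmemW' w).mp hw, map_zero]
    have h3 : E w ∈ W ⊓ W' := ⟨h1, h2⟩
    rw [hdisj'.eq_bot] at h3
    exact (Submodule.mem_bot F).mp h3
  have htop : (⊤ : Submodule F V) ≤ LinearMap.ker E := by
    rw [← hsup']
    exact sup_le hkW hkW'
  exact hE0 (LinearMap.ker_eq_top.mp (top_le_iff.mp htop))

end lin

theorem main : Cfsg.Agent.Lib.Helper44.PGStmt.SqfreeUnip.{u} := by
  intro F _ p _ _ κ _ _ T U hsq hUT hUp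
  rcases isEmpty_or_nonempty κ with hκ | hκ
  · exact Subsingleton.elim _ _
  have hD : (U - 1) ^ p = 0 := by
    have hcm : Commute U 1 := Commute.one_right U
    rw [sub_pow_char_of_commute p hcm, hUp, one_pow, sub_self]
  have hDT : (U - 1) * T = T * (U - 1) := by
    rw [sub_mul, mul_sub, hUT, one_mul, mul_one]
  have h1 : (Matrix.toLin' (U - 1)) * (Matrix.toLin' T) = (Matrix.toLin' T) * (Matrix.toLin' (U - 1)) := by
    rw [Module.End.mul_eq_comp, Module.End.mul_eq_comp, ← Matrix.toLin'_mul, ← Matrix.toLin'_mul, hDT]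
  have h2 : (Matrix.toLin' (U - 1)) ^ p = 0 := by
    have e : ∀ n : ℕ, (Matrix.toLin' (U - 1)) ^ n = Matrix.toLin' ((U - 1) ^ n) := by
      intro n
      induction n with
      | zero => rw [pow_zero, pow_zero, Matrix.toLin'_one]; rfl
      | succ n ih => rw [pow_succ, pow_succ, ih, Matrix.toLin'_mul]; rfl
    rw [e, hD, map_zero]
  have h3 : Squarefree (Matrix.toLin' T).charpoly := by
    rw [Matrix.charpoly_toLin']
    exact hsq
  have h4 := nilp_eq_zero (Matrix.toLin' T) (Matrix.toLin' (U - 1)) h3 h1 p h2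
  have h5 : U - 1 = 0 := (LinearEquiv.map_eq_zero_iff Matrix.toLin').mp h4
  exact sub_eq_zero.mp h5

end Cfsg.Agent.Lib.Helper31.PGSQFU
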