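import Cfsg.Agent.Lib.Helper31.S9NOFUS

set_option autoImplicit false

namespace Cfsg.Agent.Lib.Helper31.S9KGRP

open Cfsg
open Cfsg.Agent.Lib.Helper32.S9Stmt
open Cfsg.Agent.Lib.Helper32.S9NF
open Cfsg.Agent.Lib.Helper32.S9Grp
open Cfsg.Agent.Lib.Helper31.S9Syl
open Cfsg.Agent.Lib.Helper31.S9NOFUS
open scoped Pointwise

universe u

theorem main : Cfsg.Agent.Lib.Helper32.S9Stmt.KGRP.{u} := by
  intro G _ _ T N x y a b hc K hK hbK hxK
  have : Fact (Nat.Prime 3) := ⟨Nat.prime_three⟩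
  -- y ∈ K
  have hyK : y ∈ K := by
    have h1 : y * b * y⁻¹ * b⁻¹ ∈ K := K.mul_mem (hK.conj_mem b hbK y) (K.inv_mem hbK)
    have h2 : b * y⁻¹ * b⁻¹ = y := by
      have := hc.by_
      calc b * y⁻¹ * b⁻¹ = (b * y * b⁻¹)⁻¹ := by group
        _ = y := by rw [this, inv_inv]
    have h3 : y * b * y⁻¹ * b⁻¹ = y ^ 2 := by
      calc y * b * y⁻¹ * b⁻¹ = y * (b * y⁻¹ * b⁻¹) := by group
        _ = y ^ 2 := by rw [h2, pow_two]
    rw [h3] at h1
    have h4 : y = (y ^ 2) ^ 2 := by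
      rw [← pow_mul, y_pow_mod hc (2 * 2)]
      norm_num
    rw [h4]; exact K.pow_mem h1 2
  have hx2 : x ^ 2 ∉ K := by
    intro h
    apply hxK
    have h4 : x = (x ^ 2) ^ 2 := by
      rw [← pow_mul, x_pow_mod hc (2 * 2)]
      norm_num
    rw [h4]; exact K.pow_mem h 2
  refine ⟨?_, ?_⟩
  · intro g hgN
    constructor
    · intro hgK
      obtain ⟨i, j, k, l, rfl⟩ := (mem_N_iff hc g).1 hgN
      have hu : x ^ i * a ^ k ∈ K := by
        have h1 : x ^ i * a ^ k = (y ^ j)⁻¹ * (x ^ i * y ^ j * a ^ k * b ^ l) * (b ^ l)⁻¹ := by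
          have h2 : x ^ i * y ^ j = y ^ j * x ^ i := ((cxy hc).pow_pow i j).eq
          rw [h2]; group
        rw [h1]
        exact K.mul_mem (K.mul_mem (K.inv_mem (K.pow_mem hyK j)) hgK) (K.inv_mem (K.pow_mem hbK l))
      have hk : k % 2 = 0 := by
        by_contra hk
        have hk1 : k % 2 = 1 := by omega
        have hak : a ^ k = a := by rw [a_pow_mod hc k, hk1, pow_one]
        rw [hak] at hu
        have h1 : x * (x ^ i * a) * x⁻¹ * (x ^ i * a)⁻¹ ∈ K :=
          K.mul_mem (hK.conj_mem _ hu x) (K.inv_mem hu)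
        have h2 : a * x⁻¹ * a⁻¹ = x := by
          have := hc.ax
          calc a * x⁻¹ * a⁻¹ = (a * x * a⁻¹)⁻¹ := by group
            _ = x := by rw [this, inv_inv]
        have h3 : x * (x ^ i * a) * x⁻¹ * (x ^ i * a)⁻¹ = x ^ 2 := by
          calc x * (x ^ i * a) * x⁻¹ * (x ^ i * a)⁻¹
              = x ^ i * x * (a * x⁻¹ * a⁻¹) * (x ^ i)⁻¹ := by group
            _ = x ^ 2 := by rw [h2]; group
        rw [h3] at h1
        exact hx2 h1
      have hak : a ^ k = 1 := by rw [a_pow_mod hc k, hk, pow_zero]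
      rw [hak, mul_one] at hu
      have hi : i % 3 = 0 := by
        by_contra hi
        have h3 : i % 3 < 3 := Nat.mod_lt _ (by norm_num)
        rw [x_pow_mod hc i] at hu
        have hcases : i % 3 = 1 ∨ i % 3 = 2 := by omega
        rcases hcases with h | h
        · rw [h, pow_one] at hu; exact hxK hu
        · rw [h] at hu; exact hx2 hu
      have hxi : x ^ i = 1 := by rw [x_pow_mod hc i, hi, pow_zero]
      exact ⟨j, l, by rw [hxi, hak, one_mul, mul_one]⟩
    · rintro ⟨j, l, rfl⟩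
      exact K.mul_mem (K.pow_mem hyK j) (K.pow_mem hbK l)
  · -- Frattini
    have hz : IsPGroup 3 (Subgroup.zpowers (⟨y, hyK⟩ : ↥K)) :=
      isPGroup_zpowers _ (Subtype.ext (by simpa using hc.y3))
    obtain ⟨P, hP⟩ := hz.exists_le_sylow
    have hP' : IsPGroup 3 ((P : Subgroup ↥K).map K.subtype) := P.2.map _
    have hyP' : y ∈ (P : Subgroup ↥K).map K.subtype :=
      ⟨⟨y, hyK⟩, hP (Subgroup.mem_zpowers _), rfl⟩
    have hPT : (P : Subgroup ↥K).map K.subtype ≤ T := le_T_of_x_mem hc.swap _ hP' hyP'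
    have hfr := Sylow.normalizer_sup_eq_top P
    intro g
    have hg : g ∈ ((Subgroup.normalizer (((P : Subgroup ↥K).map K.subtype : Subgroup G) : Set G) ⊔ K :
        Subgroup G) : Set G) := by
      rw [hfr]; trivial
    rw [Subgroup.mul_normal] at hg
    obtain ⟨n, hn, k, hk, rfl⟩ := hg
    have hnN : n ∈ N := by
      apply ti hc n y (y_mem_T hc) (y1 hc)
      apply hPT
      exact ((Subgroup.mem_normalizer_iff.mp hn) y).mp hyP'
    exact ⟨n * k * n⁻¹, hK.conj_mem k hk n, n, hnN, by group⟩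

end Cfsg.Agent.Lib.Helper31.S9KGRP
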