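import Cfsg.Agent.Lib.Helper31.S9Syl

set_option autoImplicit false

namespace Cfsg.Agent.Lib.Helper31.S9NOFUS

open Cfsg
open Cfsg.Agent.Lib.Helper32.S9Stmt
open Cfsg.Agent.Lib.Helper32.S9NF
open Cfsg.Agent.Lib.Helper32.S9Grp
open Cfsg.Agent.Lib.Helper31.S9Syl
open scoped Pointwise

universe u

variable {G : Type u} [Group G] {T N : Subgroup G} {x y a b : G}

/-- every 3-subgroup is conjugate into `T`. -/
theorem conj_le_T [Finite G] (hc : Cfg T N x y a b) (R : Subgroup G) (hR : IsPGroup 3 R) :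
    ∃ g : G, ∀ r ∈ R, g * r * g⁻¹ ∈ T := by
  have : Fact (Nat.Prime 3) := ⟨Nat.prime_three⟩
  obtain ⟨P, hP⟩ := sylow_T hc
  obtain ⟨Q, hQ⟩ := hR.exists_le_sylow
  obtain ⟨g, hg⟩ := MulAction.exists_smul_eq G Q P
  refine ⟨g, ?_⟩
  intro r hr
  rw [← hP, ← hg, Sylow.coe_subgroup_smul]
  have := Subgroup.smul_mem_pointwise_smul r (MulAut.conj g) (Q : Subgroup G) (hQ hr)
  simpa [MulAut.smul_def] using this

theorem isPGroup_zpowers {H : Type u} [Group H] (k : H) (hk : k ^ 3 = 1) :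
    IsPGroup 3 (Subgroup.zpowers k) := by
  rintro ⟨g, hg⟩
  refine ⟨1, ?_⟩
  apply Subtype.ext
  obtain ⟨n, rfl⟩ := Subgroup.mem_zpowers_iff.mp hg
  simp only [pow_one, Subgroup.coe_pow, Subgroup.coe_one]
  rw [← zpow_natCast, ← zpow_mul, mul_comm, zpow_mul, zpow_natCast, hk, one_zpow]

/-- a 3-subgroup containing `x` lies in `T`. -/
theorem le_T_of_x_mem [Finite G] (hc : Cfg T N x y a b) (R : Subgroup G) (hR : IsPGroup 3 R)
    (hx : x ∈ R) : R ≤ T := by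
  obtain ⟨g₁, hg₁⟩ := conj_le_T hc R hR
  intro p hp
  have h2 := hg₁ p hp
  have h3 := hg₁ x hx
  have hcomm : p * x = x * p := by
    have h4 := T_comm hc h2 h3
    calc p * x = g₁⁻¹ * ((g₁ * p * g₁⁻¹) * (g₁ * x * g₁⁻¹)) * g₁ := by group
      _ = g₁⁻¹ * ((g₁ * x * g₁⁻¹) * (g₁ * p * g₁⁻¹)) * g₁ := by rw [h4]
      _ = x * p := by group
  have hpN : p ∈ N := hc.loc x (x_mem_T hc) hc.x1 p hcomm
  have hp3 : p ^ 3 = 1 := by
    have h5 := T_pow3 hc h2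
    rw [conj_pow] at h5
    calc p ^ 3 = g₁⁻¹ * (g₁ * p ^ 3 * g₁⁻¹) * g₁ := by group
      _ = 1 := by rw [h5]; group
  have h6 := sq_mem_T hc hpN
  have h7 : p = (p ^ 2)⁻¹ := by rw [eq_inv_iff_mul_eq_one, ← pow_succ', hp3]
  rw [h7]; exact T.inv_mem h6

/-- Sylow in a subgroup `C` containing `x`: every element `w ∈ C` with `w^3 = 1` is `C`-conjugate
into `T`. -/
theorem conj_in_sub [Finite G] (hc : Cfg T N x y a b) (C : Subgroup G) (hxC : x ∈ C) (w : G)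
    (hwC : w ∈ C) (hw3 : w ^ 3 = 1) : ∃ c ∈ C, c * w * c⁻¹ ∈ T := by
  have : Fact (Nat.Prime 3) := ⟨Nat.prime_three⟩
  have hzx : IsPGroup 3 (Subgroup.zpowers (⟨x, hxC⟩ : ↥C)) :=
    isPGroup_zpowers _ (Subtype.ext (by simpa using hc.x3))
  have hzw : IsPGroup 3 (Subgroup.zpowers (⟨w, hwC⟩ : ↥C)) :=
    isPGroup_zpowers _ (Subtype.ext (by simpa using hw3))
  obtain ⟨P, hP⟩ := hzx.exists_le_sylow
  obtain ⟨Q, hQ⟩ := hzw.exists_le_sylow
  obtain ⟨c, hc'⟩ := MulAction.exists_smul_eq ↥C Q P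
  have h1 : c * ⟨w, hwC⟩ * c⁻¹ ∈ (P : Subgroup ↥C) := by
    rw [← hc', Sylow.coe_subgroup_smul]
    have := Subgroup.smul_mem_pointwise_smul _ (MulAut.conj c) (Q : Subgroup ↥C)
      (hQ (Subgroup.mem_zpowers _))
    simpa [MulAut.smul_def] using this
  have hP' : IsPGroup 3 ((P : Subgroup ↥C).map C.subtype) := P.2.map _
  have hxP' : x ∈ (P : Subgroup ↥C).map C.subtype :=
    ⟨⟨x, hxC⟩, hP (Subgroup.mem_zpowers _), rfl⟩
  have hPT := le_T_of_x_mem hc _ hP' hxP'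
  exact ⟨(c : G), c.2, hPT ⟨c * ⟨w, hwC⟩ * c⁻¹, h1, rfl⟩⟩

theorem main : Cfsg.Agent.Lib.Helper32.S9Stmt.NOFUS.{u} := by
  intro G _ _ T N x y a b hc hconj
  obtain ⟨g, hg⟩ := isConj_iff.mp hconj
  have hxC : x ∈ Subgroup.centralizer ({b} : Set G) := by
    rw [Subgroup.mem_centralizer_iff]
    intro h hh
    rw [Set.mem_singleton_iff] at hh
    rw [hh]; exact hc.bx
  have hwC : g * y * g⁻¹ ∈ Subgroup.centralizer ({b} : Set G) := by
    rw [Subgroup.mem_centralizer_iff]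
    intro h hh
    rw [Set.mem_singleton_iff] at hh
    rw [hh, ← hg]
    calc g * a * g⁻¹ * (g * y * g⁻¹) = g * (a * y) * g⁻¹ := by group
      _ = g * (y * a) * g⁻¹ := by rw [hc.ay]
      _ = g * y * g⁻¹ * (g * a * g⁻¹) := by group
  have hw3 : (g * y * g⁻¹) ^ 3 = 1 := by
    rw [conj_pow, hc.y3]; group
  obtain ⟨c, hcC, hcT⟩ := conj_in_sub hc _ hxC _ hwC hw3
  have hh : (c * g) * y * (c * g)⁻¹ ∈ T := by
    have : (c * g) * y * (c * g)⁻¹ = c * (g * y * g⁻¹) * c⁻¹ := by group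
    rw [this]; exact hcT
  have hN : c * g ∈ N := ti hc (c * g) y (y_mem_T hc) (y1 hc) hh
  obtain ⟨i, j, k, l, hijkl⟩ := (mem_N_iff hc _).1 hN
  have hcy := conj_y hc i j k l
  rw [← hijkl] at hcy
  have hyeC : y ^ (if l % 2 = 0 then 1 else 2) ∈ Subgroup.centralizer ({b} : Set G) := by
    rw [← hcy]
    have : (c * g) * y * (c * g)⁻¹ = c * (g * y * g⁻¹) * c⁻¹ := by group
    rw [this]
    exact Subgroup.mul_mem _ (Subgroup.mul_mem _ hcC hwC) (Subgroup.inv_mem _ hcC)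
  have hbe : ∀ e : ℕ, y ^ e ∈ Subgroup.centralizer ({b} : Set G) → y ^ e = y ^ (2 * e) := by
    intro e he
    have h1 : b * y ^ e = y ^ e * b := (Subgroup.mem_centralizer_iff.mp he) b rfl
    have h2 := b_pow_mul_y_pow hc 1 e
    simp only [pow_one, Nat.one_mod, one_ne_zero, if_false] at h2
    rw [h1] at h2
    exact mul_right_cancel h2
  by_cases hl : l % 2 = 0
  · rw [if_pos hl] at hyeC
    have := hbe 1 hyeC
    exact y_sq_ne hc this.symm
  · rw [if_neg hl] at hyeC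
    have h4 := hbe 2 hyeC
    have h5 : y ^ (2 * 2) = y ^ 1 := by
      rw [y_pow_mod hc (2 * 2)]
    rw [h5] at h4
    exact y_sq_ne hc h4

end Cfsg.Agent.Lib.Helper31.S9NOFUS
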