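import Cfsg.Agent.Lib.Helper31.S9NCORE

set_option autoImplicit false

namespace Cfsg.Agent.Lib.Helper31.S9P1FIN

open Cfsg
open Cfsg.Agent.Lib.Helper32.S9Stmt
open Cfsg.Agent.Lib.Helper32.S9NF
open Cfsg.Agent.Lib.Helper32.S9Grp
open Cfsg.Agent.Lib.Helper31.S9Syl

universe u

theorem main : Cfsg.Agent.Lib.Helper32.S9Stmt.P1FIN.{u} := by
  intro G _ _ T N x y a b hc Ka Kb hKa hKb hA hB hsup
  have hKN : ∀ g ∈ Ka ⊓ Kb, g ∈ N → g = 1 := by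
    rintro g ⟨hga, hgb⟩ hgN
    obtain ⟨j, l, h1⟩ := (hA g hgN).1 hga
    obtain ⟨j', l', h2⟩ := (hB g hgN).1 hgb
    have h3 : x ^ j * y ^ 0 * a ^ l * b ^ 0 = x ^ 0 * y ^ j' * a ^ 0 * b ^ l' := by
      simp only [pow_zero, mul_one, one_mul]
      rw [← h1, ← h2]
    obtain ⟨e1, -, e3, -⟩ := nf_unique hc _ _ _ _ _ _ _ _ h3
    rw [h1, x_pow_mod hc j, a_pow_mod hc l, e1, e3]
    simp
  have hbot : Ka ⊓ Kb = ⊥ :=
    Cfsg.Agent.Lib.Helper31.S9NCORE.main hc (Ka ⊓ Kb) inferInstance hKN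
  have hxKa : x ∈ Ka := (hA x (T_le_N hc (x_mem_T hc))).2 ⟨1, 0, by simp⟩
  have hKbN : Kb ≤ N := by
    intro v hv
    apply hc.loc x (x_mem_T hc) hc.x1
    have h1 : x * v * x⁻¹ * v⁻¹ ∈ Ka ⊓ Kb := by
      refine ⟨?_, ?_⟩
      · have : x * v * x⁻¹ * v⁻¹ = x * (v * x⁻¹ * v⁻¹) := by group
        rw [this]
        exact Ka.mul_mem hxKa (hKa.conj_mem _ (Ka.inv_mem hxKa) v)
      · exact Kb.mul_mem (hKb.conj_mem _ hv x) (Kb.inv_mem hv)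
    rw [hbot, Subgroup.mem_bot] at h1
    calc v * x = (x * v * x⁻¹ * v⁻¹)⁻¹ * (x * v) := by group
      _ = x * v := by rw [h1]; group
  rw [eq_top_iff]
  intro g _
  obtain ⟨k, hk, n, hn, rfl⟩ := hsup g
  exact N.mul_mem (hKbN hk) hn

end Cfsg.Agent.Lib.Helper31.S9P1FIN
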