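import Cfsg.Agent.Lib.Helper32.S9Grp

/-!
# S3805: Sylow facts in the configuration (shared by the pieces NCORE, NOFUS, KGRP)
-/

set_option autoImplicit false

namespace Cfsg.Agent.Lib.Helper31.S9Syl

open Cfsg
open Cfsg.Agent.Lib.Helper32.S9Stmt
open Cfsg.Agent.Lib.Helper32.S9NF
open Cfsg.Agent.Lib.Helper32.S9Grp
open scoped Pointwise

universe u

variable {G : Type u} [Group G] {T N : Subgroup G} {x y a b : G}

theorem card_T (hc : Cfg T N x y a b) : Nat.card T = 9 := by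
  let e : Fin 3 × Fin 3 → T := fun p =>
    ⟨x ^ (p.1 : ℕ) * y ^ (p.2 : ℕ), (hc.memT _).2 ⟨_, _, rfl⟩⟩
  have hinj : Function.Injective e := by
    rintro ⟨i, j⟩ ⟨i', j'⟩ h
    have h' : x ^ (i : ℕ) * y ^ (j : ℕ) = x ^ (i' : ℕ) * y ^ (j' : ℕ) := congrArg Subtype.val h
    have h'' : x ^ (i : ℕ) * y ^ (j : ℕ) * a ^ 0 * b ^ 0 =
        x ^ (i' : ℕ) * y ^ (j' : ℕ) * a ^ 0 * b ^ 0 := by simpa using h'
    obtain ⟨h1, h2, -, -⟩ := nf_unique hc _ _ _ _ _ _ _ _ h''
    simp only [Prod.mk.injEq]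
    refine ⟨Fin.ext ?_, Fin.ext ?_⟩
    · have := i.2; have := i'.2; omega
    · have := j.2; have := j'.2; omega
  have hsurj : Function.Surjective e := by
    rintro ⟨g, hg⟩
    obtain ⟨i, j, rfl⟩ := (hc.memT g).1 hg
    refine ⟨(⟨i % 3, Nat.mod_lt _ (by norm_num)⟩, ⟨j % 3, Nat.mod_lt _ (by norm_num)⟩), ?_⟩
    apply Subtype.ext
    show x ^ (i % 3) * y ^ (j % 3) = _
    rw [← x_pow_mod hc, ← y_pow_mod hc]
  rw [← Nat.card_congr (Equiv.ofBijective e ⟨hinj, hsurj⟩)]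
  simp [Nat.card_eq_fintype_card]

theorem T_isPGroup (hc : Cfg T N x y a b) : IsPGroup 3 T := by
  rintro ⟨t, ht⟩
  refine ⟨1, ?_⟩
  apply Subtype.ext
  simp only [pow_one, Subgroup.coe_pow, Subgroup.coe_one]
  exact T_pow3 hc ht

theorem T_le_N (hc : Cfg T N x y a b) : T ≤ N := by
  intro t ht
  exact (hc.memN t).2 ⟨t, ht, 0, 0, by simp⟩

theorem sylow_T [Finite G] (hc : Cfg T N x y a b) : ∃ P : Sylow 3 G, (P : Subgroup G) = T := by
  have : Fact (Nat.Prime 3) := ⟨Nat.prime_three⟩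
  obtain ⟨P, hP⟩ := (T_isPGroup hc).exists_le_sylow
  refine ⟨P, ?_⟩
  have hcard : Nat.card P = 3 ^ (Nat.card G).factorization 3 := Sylow.card_eq_multiplicity P
  have hle : (Nat.card G).factorization 3 ≤ 2 := by
    by_contra h
    push Not at h
    apply hc.syl
    have : 3 ^ 3 ∣ Nat.card G :=
      (Nat.Prime.pow_dvd_iff_le_factorization Nat.prime_three Nat.card_pos.ne').mpr h
    simpa using this
  have hle' : Nat.card (P : Subgroup G) ≤ Nat.card T := by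
    rw [card_T hc, hcard]
    calc 3 ^ (Nat.card G).factorization 3 ≤ 3 ^ 2 := Nat.pow_le_pow_right (by norm_num) hle
      _ = 9 := by norm_num
  exact (Subgroup.eq_of_le_of_card_ge hP hle').symm

/-- every element of order dividing 3 is conjugate into `T`. -/
theorem conj_mem_T [Finite G] (hc : Cfg T N x y a b) (k : G) (hk : k ^ 3 = 1) :
    ∃ g : G, g * k * g⁻¹ ∈ T := by
  have : Fact (Nat.Prime 3) := ⟨Nat.prime_three⟩
  obtain ⟨P, hP⟩ := sylow_T hc
  have hz : IsPGroup 3 (Subgroup.zpowers k) := by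
    rintro ⟨g, hg⟩
    refine ⟨1, ?_⟩
    apply Subtype.ext
    obtain ⟨n, rfl⟩ := Subgroup.mem_zpowers_iff.mp hg
    simp only [pow_one, Subgroup.coe_pow, Subgroup.coe_one]
    rw [← zpow_natCast, ← zpow_mul, mul_comm, zpow_mul, zpow_natCast, hk, one_zpow]
  obtain ⟨Q, hQ⟩ := hz.exists_le_sylow
  obtain ⟨g, hg⟩ := MulAction.exists_smul_eq G Q P
  refine ⟨g, ?_⟩
  rw [← hP, ← hg, Sylow.coe_subgroup_smul]
  have hkQ : k ∈ (Q : Subgroup G) := hQ (Subgroup.mem_zpowers k)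
  have := Subgroup.smul_mem_pointwise_smul k (MulAut.conj g) (Q : Subgroup G) hkQ
  simpa [MulAut.smul_def] using this

/-- the centralizer in a normal subgroup `K` with `K ∩ N = 1` of a nonidentity element of `T`. -/
theorem loc_mem (hc : Cfg T N x y a b) {t g : G} (ht : t ∈ T) (ht1 : t ≠ 1)
    (hg : g ∈ Subgroup.centralizer ({t} : Set G)) : g ∈ N := by
  apply hc.loc t ht ht1
  exact ((Subgroup.mem_centralizer_iff.mp hg) t rfl).symm

theorem x_mul_y_pow_ne (hc : Cfg T N x y a b) (j : ℕ) : x * y ^ j ≠ 1 := by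
  intro h
  have h1 : x ^ 1 = y ^ (2 * j) := by
    have h2 : y ^ (2 * j) = (y ^ j)⁻¹ := by
      rw [eq_inv_iff_mul_eq_one, ← pow_add]
      have : 2 * j + j = 3 * j := by ring
      rw [this, pow_mul, hc.y3, one_pow]
    rw [h2, pow_one, eq_inv_iff_mul_eq_one]
    exact h
  have h3 := x_pow_eq_y_pow hc 1 (2 * j) h1
  have h4 : j % 3 = 0 := by omega
  have h5 : y ^ j = 1 := by rw [y_pow_mod hc j, h4, pow_zero]
  rw [h5, mul_one] at h
  exact hc.x1 h

end Cfsg.Agent.Lib.Helper31.S9Syl
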