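import Mathlib
import Cfsg.Agent.Lib.Helper38.Sp4Stmt

/-!
Shared 2x2 facts for the S5320 pieces of helper31 (`Q8W`, `QCEN`, `QFOC`): entries of `yy`, `ww`,
membership of `-1`, `w0`, `yy` in `Qst`, and elements of `Cst` commute with `w0`.
-/

set_option autoImplicit false

namespace Cfsg.Agent.Lib.Helper31.Sp4SL2

open Matrix Cfsg.Agent.Lib.Helper38.Sp4Stmt Cfsg.Agent.Lib.Helper42.SL2Odd
open Cfsg.Agent.H85.PSL2Inv hiding w0

universe u

variable {F : Type u} [Field F]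

local notation "SL2F" => Matrix.SpecialLinearGroup (Fin 2) F

theorem yy_00 (x y : F) (h : x ^ 2 + y ^ 2 = -1) : (yy x y h) 0 0 = x := rfl
theorem yy_01 (x y : F) (h : x ^ 2 + y ^ 2 = -1) : (yy x y h) 0 1 = y := rfl
theorem yy_10 (x y : F) (h : x ^ 2 + y ^ 2 = -1) : (yy x y h) 1 0 = y := rfl
theorem yy_11 (x y : F) (h : x ^ 2 + y ^ 2 = -1) : (yy x y h) 1 1 = -x := rfl

theorem ww_00 (x y : F) (h : x ^ 2 + y ^ 2 = -1) (h2 : (2 : F) ≠ 0) :
    (ww x y h h2) 0 0 = (-1 + x - y) / 2 := rfl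
theorem ww_01 (x y : F) (h : x ^ 2 + y ^ 2 = -1) (h2 : (2 : F) ≠ 0) :
    (ww x y h h2) 0 1 = (-1 + y + x) / 2 := rfl
theorem ww_10 (x y : F) (h : x ^ 2 + y ^ 2 = -1) (h2 : (2 : F) ≠ 0) :
    (ww x y h h2) 1 0 = (1 + y + x) / 2 := rfl
theorem ww_11 (x y : F) (h : x ^ 2 + y ^ 2 = -1) (h2 : (2 : F) ≠ 0) :
    (ww x y h h2) 1 1 = (-1 - x + y) / 2 := rfl

/-- `-1` commutes with everything -/
theorem neg_one_comm (g : SL2F) : (-1 : SL2F) * g = g * (-1) := by
  obtain ⟨a00, a01, a10, a11⟩ := mul_entries (-1 : SL2F) g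
  obtain ⟨b00, b01, b10, b11⟩ := mul_entries g (-1 : SL2F)
  obtain ⟨o00, o01, o10, o11⟩ := one_entries (F := F)
  apply ext_entries
  · rw [a00, b00, neg_entries, neg_entries, neg_entries, o00, o01, o10]; ring
  · rw [a01, b01, neg_entries, neg_entries, neg_entries, o00, o01, o11]; ring
  · rw [a10, b10, neg_entries, neg_entries, neg_entries, o00, o10, o11]; ring
  · rw [a11, b11, neg_entries, neg_entries, neg_entries, o01, o10, o11]; ring

theorem neg_one_mul_eq (g : SL2F) : (-1 : SL2F) * g = -g := by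
  obtain ⟨a00, a01, a10, a11⟩ := mul_entries (-1 : SL2F) g
  obtain ⟨o00, o01, o10, o11⟩ := one_entries (F := F)
  apply ext_entries
  · rw [a00, neg_entries, neg_entries, neg_entries, o00, o01]; ring
  · rw [a01, neg_entries, neg_entries, neg_entries, o00, o01]; ring
  · rw [a10, neg_entries, neg_entries, neg_entries, o10, o11]; ring
  · rw [a11, neg_entries, neg_entries, neg_entries, o10, o11]; ring

theorem neg_one_sq : (-1 : SL2F) * (-1) = 1 := by
  rw [neg_one_mul_eq]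
  apply ext_entries <;> rw [neg_entries, neg_entries, neg_neg]

theorem w0_sq : (w0 : SL2F) * w0 = -1 := by
  apply sq_of_trace_zero
  show (Cfsg.Agent.H85.PSL2Inv.w0 : SL2F) 0 0 + (Cfsg.Agent.H85.PSL2Inv.w0 : SL2F) 1 1 = 0
  rw [Cfsg.Agent.H85.PSL2Inv.w0_00, Cfsg.Agent.H85.PSL2Inv.w0_11, add_zero]

theorem yy_sq (x y : F) (h : x ^ 2 + y ^ 2 = -1) : yy x y h * yy x y h = -1 := by
  apply sq_of_trace_zero
  rw [yy_00, yy_11, add_neg_cancel]

theorem neg_one_mem_Cst : (-1 : SL2F) ∈ Cst F := by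
  apply Subgroup.subset_closure
  refine ⟨neg_one_comm (w0 : SL2F), 1, ?_⟩
  rw [pow_one, pow_two, neg_one_sq]

theorem w0_mem_Cst : (w0 : SL2F) ∈ Cst F := by
  apply Subgroup.subset_closure
  refine ⟨rfl, 2, ?_⟩
  show (w0 : SL2F) ^ 4 = 1
  have : (w0 : SL2F) ^ 4 = (w0 * w0) * (w0 * w0) := by
    rw [pow_succ, pow_succ, pow_succ, pow_one, mul_assoc]
  rw [this, w0_sq, neg_one_sq]

theorem Cst_le_Qst (x y : F) (h : x ^ 2 + y ^ 2 = -1) : Cst F ≤ Qst x y h := by
  intro g hg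
  exact Subgroup.subset_closure (Or.inl hg)

theorem yy_mem_Qst (x y : F) (h : x ^ 2 + y ^ 2 = -1) : yy x y h ∈ Qst x y h :=
  Subgroup.subset_closure (Or.inr rfl)

theorem w0_mem_Qst (x y : F) (h : x ^ 2 + y ^ 2 = -1) : (w0 : SL2F) ∈ Qst x y h :=
  Cst_le_Qst x y h w0_mem_Cst

theorem neg_one_mem_Qst (x y : F) (h : x ^ 2 + y ^ 2 = -1) : (-1 : SL2F) ∈ Qst x y h :=
  Cst_le_Qst x y h neg_one_mem_Cst

/-- elements of `Cst` commute with `w0` -/
theorem comm_of_mem_Cst {g : SL2F} (hg : g ∈ Cst F) : g * w0 = w0 * g := by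
  have hle : Cst F ≤ Subgroup.centralizer {(w0 : SL2F)} := by
    rw [Cst, Subgroup.closure_le]
    intro g hg
    rw [SetLike.mem_coe, Subgroup.mem_centralizer_iff]
    intro z hz
    rw [Set.mem_singleton_iff] at hz
    rw [hz]
    exact hg.1.symm
  have := hle hg
  rw [Subgroup.mem_centralizer_iff] at this
  exact (this _ rfl).symm

/-- `yy` inverts the elements commuting with `w0` -/
theorem yy_conj (x y : F) (h : x ^ 2 + y ^ 2 = -1) {c : SL2F} (hc : c * w0 = w0 * c) :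
    yy x y h * c * yy x y h = -c⁻¹ := by
  obtain ⟨h1, h3⟩ := (comm_w0_iff c).mp hc
  have hd := det_eq c
  -- it suffices to show `yy * c * yy * c = -1`
  have key : yy x y h * c * yy x y h * c = -1 := by
    obtain ⟨a00, a01, a10, a11⟩ := mul_entries (yy x y h * c * yy x y h) c
    obtain ⟨b00, b01, b10, b11⟩ := mul_entries (yy x y h * c) (yy x y h)
    obtain ⟨c00, c01, c10, c11⟩ := mul_entries (yy x y h) c
    obtain ⟨o00, o01, o10, o11⟩ := one_entries (F := F)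
    rw [h1, h3] at hd
    apply ext_entries
    · rw [a00, b00, b01, c00, c01, yy_00, yy_01, yy_10, yy_11, neg_entries, o00, h1, h3]
      linear_combination (c 1 1 ^ 2 + c 1 0 ^ 2) * h + (-1 : F) * hd
    · rw [a01, b00, b01, c00, c01, yy_00, yy_01, yy_10, yy_11, neg_entries, o01, h1, h3]
      ring
    · rw [a10, b10, b11, c10, c11, yy_00, yy_01, yy_10, yy_11, neg_entries, o10, h1, h3]
      ring
    · rw [a11, b10, b11, c10, c11, yy_00, yy_01, yy_10, yy_11, neg_entries, o11, h1, h3]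
      linear_combination (c 1 1 ^ 2 + c 1 0 ^ 2) * h + (-1 : F) * hd
  have h5 : yy x y h * c * yy x y h = -1 * c⁻¹ := by
    rw [← key]; group
  rw [h5, neg_one_mul_eq]

end Cfsg.Agent.Lib.Helper31.Sp4SL2
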