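import Mathlib
import Cfsg.Agent.Lib.Helper38.Sp4Stmt
import Cfsg.Agent.Lib.Helper31.Sp4SL2

/-!
S5320 piece `Q8W`: `ww` normalizes `Qst` in the quaternion case, `ww³ = 1`, `ww ≠ 1`.
-/

set_option autoImplicit false

namespace Cfsg.Agent.Lib.Helper31.Sp4Q8W

open Matrix Cfsg.Agent.Lib.Helper38.Sp4Stmt Cfsg.Agent.Lib.Helper42.SL2Odd
open Cfsg.Agent.H85.PSL2Inv hiding w0
open Cfsg.Agent.Lib.Helper31.Sp4SL2

universe u

variable {F : Type u} [Field F]

local notation "SL2F" => Matrix.SpecialLinearGroup (Fin 2) F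

theorem ww_w0 (x y : F) (h : x ^ 2 + y ^ 2 = -1) (h2 : (2 : F) ≠ 0) :
    ww x y h h2 * w0 = (w0 * yy x y h) * ww x y h h2 := by
  obtain ⟨a00, a01, a10, a11⟩ := mul_entries (ww x y h h2) (w0 : SL2F)
  obtain ⟨b00, b01, b10, b11⟩ := mul_entries ((w0 : SL2F) * yy x y h) (ww x y h h2)
  obtain ⟨c00, c01, c10, c11⟩ := mul_entries (w0 : SL2F) (yy x y h)
  have w00 : (w0 : SL2F) 0 0 = 0 := rfl
  have w01 : (w0 : SL2F) 0 1 = -1 := rfl
  have w10 : (w0 : SL2F) 1 0 = 1 := rfl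
  have w11 : (w0 : SL2F) 1 1 = 0 := rfl
  apply ext_entries
  · rw [a00, b00, c00, c01, w00, w01, w10, yy_00, yy_01, yy_10, yy_11, ww_00, ww_01, ww_10]
    grind
  · rw [a01, b01, c00, c01, w00, w01, w11, yy_00, yy_01, yy_10, yy_11, ww_00, ww_01, ww_11]
    grind
  · rw [a10, b10, c10, c11, w00, w10, w11, yy_00, yy_01, yy_10, yy_11, ww_00, ww_10, ww_11]
    grind
  · rw [a11, b11, c10, c11, w01, w10, w11, yy_00, yy_01, yy_10, yy_11, ww_01, ww_10, ww_11]
    grind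

theorem ww_yy (x y : F) (h : x ^ 2 + y ^ 2 = -1) (h2 : (2 : F) ≠ 0) :
    ww x y h h2 * yy x y h = w0 * ww x y h h2 := by
  obtain ⟨a00, a01, a10, a11⟩ := mul_entries (ww x y h h2) (yy x y h)
  obtain ⟨b00, b01, b10, b11⟩ := mul_entries (w0 : SL2F) (ww x y h h2)
  have w00 : (w0 : SL2F) 0 0 = 0 := rfl
  have w01 : (w0 : SL2F) 0 1 = -1 := rfl
  have w10 : (w0 : SL2F) 1 0 = 1 := rfl
  have w11 : (w0 : SL2F) 1 1 = 0 := rfl
  apply ext_entries
  · rw [a00, b00, w00, w01, yy_00, yy_10, ww_00, ww_01, ww_10]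
    grind
  · rw [a01, b01, w00, w01, yy_01, yy_11, ww_00, ww_01, ww_11]
    grind
  · rw [a10, b10, w10, w11, yy_00, yy_10, ww_00, ww_10, ww_11]
    grind
  · rw [a11, b11, w10, w11, yy_01, yy_11, ww_01, ww_10, ww_11]
    grind

theorem ww_cube (x y : F) (h : x ^ 2 + y ^ 2 = -1) (h2 : (2 : F) ≠ 0) :
    ww x y h h2 * ww x y h h2 * ww x y h h2 = 1 := by
  obtain ⟨a00, a01, a10, a11⟩ := mul_entries (ww x y h h2 * ww x y h h2) (ww x y h h2)
  obtain ⟨b00, b01, b10, b11⟩ := mul_entries (ww x y h h2) (ww x y h h2)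
  obtain ⟨o00, o01, o10, o11⟩ := one_entries (F := F)
  have ht : (ww x y h h2) 0 0 + (ww x y h h2) 1 1 = -1 := by
    rw [ww_00, ww_11]; field_simp; ring
  have hd := det_eq (ww x y h h2)
  apply ext_entries
  · rw [a00, b00, b01, o00]; grind
  · rw [a01, b00, b01, o01]; grind
  · rw [a10, b10, b11, o10]; grind
  · rw [a11, b10, b11, o11]; grind

theorem ww_ne_one (x y : F) (h : x ^ 2 + y ^ 2 = -1) (h2 : (2 : F) ≠ 0) :
    ww x y h h2 ≠ 1 := by
  intro he
  obtain ⟨o00, o01, o10, o11⟩ := one_entries (F := F)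
  have e01 : (ww x y h h2) 0 1 = 0 := by rw [he, o01]
  have e10 : (ww x y h h2) 1 0 = 0 := by rw [he, o10]
  rw [ww_01] at e01
  rw [ww_10] at e10
  have e01' : -1 + y + x = 0 := by
    have := div_eq_zero_iff.mp e01
    exact this.resolve_right h2
  have e10' : 1 + y + x = 0 := by
    have := div_eq_zero_iff.mp e10
    exact this.resolve_right h2
  apply h2
  linear_combination e10' - e01'

theorem main : Cfsg.Agent.Lib.Helper38.Sp4Stmt.Q8W.{u} := by
  intro F _ x y h h2 hC4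
  refine ⟨?_, ww_cube x y h h2, ww_ne_one x y h h2⟩
  have hle : Qst x y h ≤ (Qst x y h).comap (MulAut.conj (ww x y h h2)).toMonoidHom := by
    have hw0 : ww x y h h2 * w0 * (ww x y h h2)⁻¹ ∈ Qst x y h := by
      rw [ww_w0, mul_inv_cancel_right]
      exact (Qst x y h).mul_mem (w0_mem_Qst x y h) (yy_mem_Qst x y h)
    rw [Qst, Subgroup.closure_le]
    rintro g (hg | rfl)
    · rcases hC4 g hg with rfl | rfl | rfl | rfl
      · show ww x y h h2 * 1 * (ww x y h h2)⁻¹ ∈ Qst x y h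
        rw [mul_one, mul_inv_cancel]
        exact (Qst x y h).one_mem
      · show ww x y h h2 * (-1) * (ww x y h h2)⁻¹ ∈ Qst x y h
        rw [← neg_one_comm, mul_inv_cancel_right]
        exact neg_one_mem_Qst x y h
      · exact hw0
      · show ww x y h h2 * (-w0) * (ww x y h h2)⁻¹ ∈ Qst x y h
        rw [← neg_one_mul_eq, ← mul_assoc, ← neg_one_comm, mul_assoc, mul_assoc]
        exact (Qst x y h).mul_mem (neg_one_mem_Qst x y h) (by rw [← mul_assoc]; exact hw0)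
    · show ww x y h h2 * yy x y h * (ww x y h h2)⁻¹ ∈ Qst x y h
      rw [ww_yy, mul_inv_cancel_right]
      exact w0_mem_Qst x y h
  intro c hc
  exact hle hc

end Cfsg.Agent.Lib.Helper31.Sp4Q8W
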