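import Mathlib
import Cfsg.Agent.Lib.Helper38.Sp4Stmt
import Cfsg.Agent.Lib.Helper31.Sp4SL2

/-!
S5320 piece `QCEN`: the centre of `Qst` is `{1, -1}`.
-/

set_option autoImplicit false

namespace Cfsg.Agent.Lib.Helper31.Sp4QCEN

open Matrix Cfsg.Agent.Lib.Helper38.Sp4Stmt Cfsg.Agent.Lib.Helper42.SL2Odd
open Cfsg.Agent.H85.PSL2Inv hiding w0
open Cfsg.Agent.Lib.Helper31.Sp4SL2

universe u

theorem main : Cfsg.Agent.Lib.Helper38.Sp4Stmt.QCEN.{u} := by
  intro F _ x y h h2 a ha hcen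
  have hw := hcen w0 (w0_mem_Qst x y h)
  have hy := hcen (yy x y h) (yy_mem_Qst x y h)
  obtain ⟨h1, h3⟩ := (comm_w0_iff a).mp hw
  obtain ⟨a00, a01, a10, a11⟩ := mul_entries a (yy x y h)
  obtain ⟨b00, b01, b10, b11⟩ := mul_entries (yy x y h) a
  have e00 : (a * yy x y h) 0 0 = (yy x y h * a) 0 0 := by rw [hy]
  have e01 : (a * yy x y h) 0 1 = (yy x y h * a) 0 1 := by rw [hy]
  rw [a00, b00, yy_00, yy_01, yy_10] at e00
  rw [a01, b01, yy_00, yy_01, yy_11] at e01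
  have hd := det_eq a
  have f1 : (2 : F) * (a 1 0 * y) = 0 := by grind
  have f2 : (2 : F) * (a 1 0 * x) = 0 := by grind
  have g1 : a 1 0 * y = 0 := (mul_eq_zero.mp f1).resolve_left h2
  have g2 : a 1 0 * x = 0 := (mul_eq_zero.mp f2).resolve_left h2
  have hq : a 1 0 = 0 := by grind
  have hq' : a 0 1 = 0 := by rw [h3, hq, neg_zero]
  apply eq_one_or_neg_of_sq h2
  obtain ⟨c00, c01, c10, c11⟩ := mul_entries a a
  obtain ⟨o00, o01, o10, o11⟩ := one_entries (F := F)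
  rw [hq, hq'] at hd
  apply ext_entries
  · rw [c00, o00, hq, hq']; linear_combination hd + a 0 0 * h1
  · rw [c01, o01, hq']; ring
  · rw [c10, o10, hq]; ring
  · rw [c11, o11, hq, hq']; linear_combination hd - a 1 1 * h1

end Cfsg.Agent.Lib.Helper31.Sp4QCEN
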