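import Mathlib
import Cfsg.Agent.Lib.Helper38.Sp4Stmt
import Cfsg.Agent.Lib.Helper31.Sp4SL2

/-!
S5320 piece `QFOC`: `Qst` is generated by the `a⁻¹ (g a g⁻¹)` with `a, g a g⁻¹ ∈ Qst`.
-/

set_option autoImplicit false

namespace Cfsg.Agent.Lib.Helper31.Sp4QFOC

open Matrix Cfsg.Agent.Lib.Helper38.Sp4Stmt Cfsg.Agent.Lib.Helper42.SL2Odd
open Cfsg.Agent.H85.PSL2Inv hiding w0
open Cfsg.Agent.Lib.Helper31.Sp4SL2

universe u

theorem main : Cfsg.Agent.Lib.Helper38.Sp4Stmt.QFOC.{u} := by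
  intro F _ _ x y h hodd
  have h2 : (2 : F) ≠ 0 := by
    apply Ring.two_ne_zero
    intro hc
    have := FiniteField.even_card_iff_char_two.mp hc
    omega
  set K : Subgroup (Matrix.SpecialLinearGroup (Fin 2) F) := Subgroup.closure
    {z : Matrix.SpecialLinearGroup (Fin 2) F | ∃ a ∈ Qst x y h,
      ∃ g : Matrix.SpecialLinearGroup (Fin 2) F, g * a * g⁻¹ ∈ Qst x y h ∧
        z = a⁻¹ * (g * a * g⁻¹)} with hK
  -- `yy` is conjugate to `w0`
  obtain ⟨v, hv⟩ := isConj_w0 hodd h2 (x := yy x y h) (by rw [yy_00, yy_11, add_neg_cancel])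
  -- elements of `Cst` lie in `K`
  have hC : ∀ c ∈ Cst F, c ∈ K := by
    intro c hc
    have hcw := comm_of_mem_Cst hc
    obtain ⟨h1, h3⟩ := (comm_w0_iff c).mp hcw
    have htr : (c * yy x y h) 0 0 + (c * yy x y h) 1 1 = 0 := by
      obtain ⟨a00, a01, a10, a11⟩ := mul_entries c (yy x y h)
      rw [a00, a11, yy_00, yy_01, yy_10, yy_11, h1, h3]; ring
    obtain ⟨u, hu⟩ := isConj_w0 hodd h2 htr
    -- `c * yy = (u v⁻¹) yy (u v⁻¹)⁻¹`
    have hconj : (u * v⁻¹) * yy x y h * (u * v⁻¹)⁻¹ = c * yy x y h := by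
      rw [← hu, ← hv]; group
    have hmem : (u * v⁻¹) * yy x y h * (u * v⁻¹)⁻¹ ∈ Qst x y h := by
      rw [hconj]
      exact (Qst x y h).mul_mem (Cst_le_Qst x y h hc) (yy_mem_Qst x y h)
    have hgen : (yy x y h)⁻¹ * ((u * v⁻¹) * yy x y h * (u * v⁻¹)⁻¹) ∈ K :=
      Subgroup.subset_closure ⟨yy x y h, yy_mem_Qst x y h, u * v⁻¹, hmem, rfl⟩
    rw [hconj] at hgen
    -- `yy⁻¹ * c * yy = c⁻¹`
    have hinv : (yy x y h)⁻¹ * (c * yy x y h) = c⁻¹ := by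
      have e1 := yy_conj x y h hcw
      have e2 : (yy x y h)⁻¹ = -1 * yy x y h := by
        rw [inv_eq_iff_eq_inv, eq_comm, inv_eq_iff_mul_eq_one, mul_assoc, yy_sq, Sp4SL2.neg_one_sq]
      rw [e2, mul_assoc, ← mul_assoc (yy x y h), e1, neg_one_mul_eq, neg_neg]
    rw [hinv] at hgen
    have := K.inv_mem hgen
    rwa [inv_inv] at this
  have hw0K : (w0 : Matrix.SpecialLinearGroup (Fin 2) F) ∈ K := hC _ w0_mem_Cst
  have hyK : yy x y h ∈ K := by
    have hgen : (w0 : Matrix.SpecialLinearGroup (Fin 2) F)⁻¹ * (v * w0 * v⁻¹) ∈ K :=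
      Subgroup.subset_closure ⟨w0, w0_mem_Qst x y h, v, by rw [hv]; exact yy_mem_Qst x y h, rfl⟩
    rw [hv] at hgen
    have := K.mul_mem hw0K hgen
    rwa [mul_inv_cancel_left] at this
  have hle : Qst x y h ≤ K := by
    rw [Qst, Subgroup.closure_le]
    rintro g (hg | rfl)
    · exact hC g hg
    · exact hyK
  intro c hc
  exact hle hc

end Cfsg.Agent.Lib.Helper31.Sp4QFOC
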