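import Mathlib
import Cfsg.Agent.Lib.Helper31.ZSBasic

/-!
S3184 modulo the Z*-theorem (helper31): if distinct Sylow 2-subgroups meet inside the centre of
a Sylow 2-subgroup, then the involution of a cyclic characteristic subgroup of a Sylow
2-subgroup is isolated, hence lies in `Z*(G)`.
-/

set_option autoImplicit false
open Cfsg

namespace Cfsg.Agent.Lib.Helper31.ZSCyc

open Cfsg.Agent.Lib.Helper31.ZSBasic

universe u

variable {G : Type*} [Group G]

/-- Conjugation by an element of the normalizer as an automorphism of the subgroup. -/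
def conjEquiv (S : Subgroup G) (n : G) (hn : n ∈ Subgroup.normalizer (S : Set G)) : S ≃* S where
  toFun x := ⟨n * x * n⁻¹, (Subgroup.mem_normalizer_iff.mp hn x).mp x.2⟩
  invFun x := ⟨n⁻¹ * x * n, by
    have h := (Subgroup.mem_normalizer_iff.mp (Subgroup.inv_mem _ hn) x).mp x.2
    rwa [inv_inv] at h⟩
  left_inv x := by
    apply Subtype.ext
    show n⁻¹ * (n * x * n⁻¹) * n = x
    group
  right_inv x := by
    apply Subtype.ext
    show n * (n⁻¹ * x * n) * n⁻¹ = x
    group
  map_mul' x y := by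
    apply Subtype.ext
    show n * (x * y) * n⁻¹ = n * x * n⁻¹ * (n * y * n⁻¹)
    group

/-- In a cyclic group there is at most one element of order 2. -/
theorem eq_of_orderOf_two_cyclic {C : Type*} [Group C] [Finite C] [IsCyclic C] {x y : C}
    (hx : orderOf x = 2) (hy : orderOf y = 2) : x = y := by
  classical
  haveI : Fintype C := Fintype.ofFinite C
  by_contra hne
  have h := IsCyclic.card_pow_eq_one_le (α := C) (n := 2) (by norm_num)
  have hsub : ({1, x, y} : Finset C) ⊆ Finset.univ.filter (fun a : C => a ^ 2 = 1) := by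
    intro a ha
    simp only [Finset.mem_insert, Finset.mem_singleton] at ha
    simp only [Finset.mem_filter, Finset.mem_univ, true_and]
    rcases ha with rfl | rfl | rfl
    · simp
    · rw [← hx]; exact pow_orderOf_eq_one _
    · rw [← hy]; exact pow_orderOf_eq_one _
  have hcard : ({1, x, y} : Finset C).card = 3 := by
    rw [Finset.card_insert_of_notMem, Finset.card_insert_of_notMem, Finset.card_singleton]
    · simpa using hne
    · simp only [Finset.mem_insert, Finset.mem_singleton, not_or]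
      exact ⟨(ne_one_of_orderOf_two hx).symm, (ne_one_of_orderOf_two hy).symm⟩
  have := Finset.card_le_card hsub
  omega

/-- Under the hypothesis on intersections of Sylow 2-subgroups, an element of `S` fixed by
`N_G(S)` is not conjugate to any other element of `S`. -/
theorem isolated_of_CI [Finite G]
    (hCI : ∀ S T : Sylow 2 G, S ≠ T → ∃ U : Sylow 2 G,
      (S : Subgroup G) ⊓ (T : Subgroup G) ≤
        (Subgroup.center ↥(U : Subgroup G)).map (U : Subgroup G).subtype)
    (S : Sylow 2 G) (c : G) (hcS : c ∈ S)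
    (hN : ∀ n ∈ Subgroup.normalizer ((S : Subgroup G) : Set G), n * c * n⁻¹ = c) :
    ∀ g : G, g * c * g⁻¹ ∈ S → g * c * g⁻¹ = c := by
  intro g hd
  have hScard : Nat.card (S : Subgroup G) = 2 ^ (Nat.card G).factorization 2 :=
    Sylow.card_eq_multiplicity S
  -- `c` is central in `S`
  have hcen : ∀ s ∈ S, s * c = c * s := by
    intro s hs
    have h := hN s (Subgroup.le_normalizer hs)
    calc s * c = s * c * s⁻¹ * s := by group
      _ = c * s := by rw [h]
  set d := g * c * g⁻¹ with hd_def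
  set H : Subgroup G := Subgroup.centralizer ({d} : Set G) with hH
  have hmemH : ∀ x : G, x ∈ H ↔ x * d = d * x := by
    intro x; rw [hH, Subgroup.mem_centralizer_singleton_iff]
  -- T₀ = g S g⁻¹ ≤ H
  set T₀ : Subgroup G := (S : Subgroup G).map (MulAut.conj g).toMonoidHom with hT₀
  have hT₀H : T₀ ≤ H := by
    rintro _ ⟨s, hs, rfl⟩
    rw [hmemH]
    show g * s * g⁻¹ * (g * c * g⁻¹) = g * c * g⁻¹ * (g * s * g⁻¹)
    have := hcen s hs
    calc g * s * g⁻¹ * (g * c * g⁻¹) = g * (s * c) * g⁻¹ := by group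
      _ = g * (c * s) * g⁻¹ := by rw [this]
      _ = g * c * g⁻¹ * (g * s * g⁻¹) := by group
  have hT₀card : Nat.card T₀ = 2 ^ (Nat.card G).factorization 2 := by
    rw [hT₀, Subgroup.card_map_of_injective (MulAut.conj g).injective, hScard]
  -- Q = S ∩ H lies in k T₀ k⁻¹ for some k ∈ H
  have hQ : IsPGroup 2 ((S : Subgroup G) ⊓ H : Subgroup G) := S.2.to_le inf_le_left
  obtain ⟨k, hkH, hk⟩ := exists_conj_ge H T₀ ((S : Subgroup G) ⊓ H) hT₀H hT₀card hQ inf_le_right
  -- replace g by g' = k g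
  set g' := k * g with hg'
  have hd' : g' * c * g'⁻¹ = d := by
    have h1 : g' * c * g'⁻¹ = k * d * k⁻¹ := by rw [hg', hd_def]; group
    rw [h1]
    have := (hmemH k).mp hkH
    calc k * d * k⁻¹ = d * k * k⁻¹ := by rw [this]
      _ = d := by group
  set T : Subgroup G := (S : Subgroup G).map (MulAut.conj g').toMonoidHom with hT
  have hTT₀ : T₀.map (MulAut.conj k).toMonoidHom = T := by
    rw [hT₀, hT, Subgroup.map_map]
    congr 1
    ext x
    show k * (g * x * g⁻¹) * k⁻¹ = k * g * x * (k * g)⁻¹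
    group
  rw [hTT₀] at hk
  have hTcard : Nat.card T = 2 ^ (Nat.card G).factorization 2 := by
    rw [hT, Subgroup.card_map_of_injective (MulAut.conj g').injective, hScard]
  have hTH : T ≤ H := by
    rintro _ ⟨s, hs, rfl⟩
    rw [hmemH, ← hd']
    show g' * s * g'⁻¹ * (g' * c * g'⁻¹) = g' * c * g'⁻¹ * (g' * s * g'⁻¹)
    have := hcen s hs
    calc g' * s * g'⁻¹ * (g' * c * g'⁻¹) = g' * (s * c) * g'⁻¹ := by group
      _ = g' * (c * s) * g'⁻¹ := by rw [this]
      _ = g' * c * g'⁻¹ * (g' * s * g'⁻¹) := by group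
  by_cases hST : (S : Subgroup G) = T
  · -- g' normalizes S
    have hn : g' ∈ Subgroup.normalizer ((S : Subgroup G) : Set G) := by
      apply Cfsg.Agent.Lib.Helper31.InvSylow.mem_normalizer_of_conj_mem
      intro s hs
      rw [hST]
      exact ⟨s, hs, rfl⟩
    rw [← hd']
    exact hN g' hn
  · -- the Sylow subgroups S and T are distinct
    set T' : Sylow 2 G := Sylow.ofCard T hTcard with hT'
    have hT'c : (T' : Subgroup G) = T := Sylow.coe_ofCard T hTcard
    have hne : S ≠ T' := by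
      intro h
      apply hST
      rw [← hT'c, ← h]
    obtain ⟨U, hU⟩ := hCI S T' hne
    have hcH : c ∈ H := by
      rw [hmemH]
      exact (hcen d hd).symm
    have hdH : d ∈ H := by rw [hmemH]
    have hcST : c ∈ (S : Subgroup G) ⊓ (T' : Subgroup G) := by
      rw [hT'c]
      exact Subgroup.mem_inf.mpr ⟨hcS, hk (Subgroup.mem_inf.mpr ⟨hcS, hcH⟩)⟩
    have hdST : d ∈ (S : Subgroup G) ⊓ (T' : Subgroup G) := by
      rw [hT'c]
      exact Subgroup.mem_inf.mpr ⟨hd, hk (Subgroup.mem_inf.mpr ⟨hd, hdH⟩)⟩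
    have hUcen : ∀ x : G, x ∈ (S : Subgroup G) ⊓ (T' : Subgroup G) →
        ∀ y ∈ (U : Subgroup G), y * x = x * y := by
      intro x hx y hy
      obtain ⟨x', hx', rfl⟩ := hU hx
      have := Subgroup.mem_center_iff.mp hx' ⟨y, hy⟩
      exact congrArg Subtype.val this
    have hUcard : Nat.card (U : Subgroup G) = 2 ^ (Nat.card G).factorization 2 :=
      Sylow.card_eq_multiplicity U
    -- U and S are conjugate in C(c)
    set Hc : Subgroup G := Subgroup.centralizer ({c} : Set G) with hHc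
    have hmemHc : ∀ x : G, x ∈ Hc ↔ x * c = c * x := by
      intro x; rw [hHc, Subgroup.mem_centralizer_singleton_iff]
    have hSHc : (S : Subgroup G) ≤ Hc := fun s hs => (hmemHc s).mpr (hcen s hs)
    have hUHc : (U : Subgroup G) ≤ Hc := fun y hy => (hmemHc y).mpr (hUcen c hcST y hy)
    have hUH : (U : Subgroup G) ≤ H := fun y hy => (hmemH y).mpr (hUcen d hdST y hy)
    obtain ⟨a, haHc, ha⟩ := Cfsg.Agent.Lib.Helper31.InvSylow.sylow_conj Hc 2 (S : Subgroup G)
      (U : Subgroup G) hSHc hUHc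
      (by rw [hScard, factorization_eq_of_le Hc (S : Subgroup G) hSHc hScard])
      (by rw [hUcard, factorization_eq_of_le Hc (S : Subgroup G) hSHc hScard])
    obtain ⟨b, hbH, hb⟩ := Cfsg.Agent.Lib.Helper31.InvSylow.sylow_conj H 2 T
      (U : Subgroup G) hTH hUH
      (by rw [hTcard, factorization_eq_of_le H T hTH hTcard])
      (by rw [hUcard, factorization_eq_of_le H T hTH hTcard])
    -- a⁻¹ b g' normalizes S
    have hn : a⁻¹ * b * g' ∈ Subgroup.normalizer ((S : Subgroup G) : Set G) := by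
      apply Cfsg.Agent.Lib.Helper31.InvSylow.mem_normalizer_of_conj_mem
      intro s hs
      have h1 : b * (g' * s * g'⁻¹) * b⁻¹ ∈ (U : Subgroup G) := by
        rw [← hb]
        exact ⟨g' * s * g'⁻¹, ⟨s, hs, rfl⟩, rfl⟩
      rw [← ha] at h1
      obtain ⟨s', hs', hs'eq⟩ := h1
      have h2 : a * s' * a⁻¹ = b * (g' * s * g'⁻¹) * b⁻¹ := hs'eq
      have h3 : a⁻¹ * b * g' * s * (a⁻¹ * b * g')⁻¹ = s' := by
        calc a⁻¹ * b * g' * s * (a⁻¹ * b * g')⁻¹ = a⁻¹ * (b * (g' * s * g'⁻¹) * b⁻¹) * a := by group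
          _ = a⁻¹ * (a * s' * a⁻¹) * a := by rw [h2]
          _ = s' := by group
      rw [h3]; exact hs'
    have h4 := hN _ hn
    have h5 : b * d * b⁻¹ = a * c * a⁻¹ := by
      have e : a⁻¹ * b * g' * c * (a⁻¹ * b * g')⁻¹ = a⁻¹ * (b * (g' * c * g'⁻¹) * b⁻¹) * a := by
        group
      rw [e, hd'] at h4
      calc b * d * b⁻¹ = a * (a⁻¹ * (b * d * b⁻¹) * a) * a⁻¹ := by group
        _ = a * c * a⁻¹ := by rw [h4]
    have h6 : b * d * b⁻¹ = d := by
      have := (hmemH b).mp hbH
      calc b * d * b⁻¹ = d * b * b⁻¹ := by rw [this]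
        _ = d := by group
    have h7 : a * c * a⁻¹ = c := by
      have := (hmemHc a).mp haHc
      calc a * c * a⁻¹ = c * a * a⁻¹ := by rw [this]
        _ = c := by group
    rw [h6, h7] at h5
    exact h5

/-- S3184 modulo the Z*-theorem. -/
theorem main (ZS : ZStarHyp.{u}) {G : Type u} [Group G] [Finite G]
    (hCI : ∀ S T : Sylow 2 G, S ≠ T → ∃ U : Sylow 2 G,
      (S : Subgroup G) ⊓ (T : Subgroup G) ≤
        (Subgroup.center ↥(U : Subgroup G)).map (U : Subgroup G).subtype)
    (S : Sylow 2 G) (C : Subgroup ↥(S : Subgroup G)) (hCc : IsCyclic ↥C)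
    (hCh : C.Characteristic)
    (c : ↥(S : Subgroup G)) (hc : c ∈ C) (hc2 : orderOf c = 2) :
    ∀ g : G, (QuotientGroup.mk (s := Cfsg.oddCore G) (g * (c : G) * g⁻¹)) =
      QuotientGroup.mk (s := Cfsg.oddCore G) (c : G) := by
  have hc2G : orderOf (c : G) = 2 := by rw [Subgroup.orderOf_coe]; exact hc2
  have hN : ∀ n ∈ Subgroup.normalizer (((S : Subgroup G)) : Set G), n * (c : G) * n⁻¹ = c := by
    intro n hn
    set φ := conjEquiv (S : Subgroup G) n hn with hφ
    have h1 : φ c ∈ C := by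
      have h := hCh.fixed φ
      have h2 : c ∈ C.comap φ.toMonoidHom := by rw [h]; exact hc
      exact h2
    have h3 : orderOf (φ c) = 2 := by rw [MulEquiv.orderOf_eq]; exact hc2
    have h4 : (⟨φ c, h1⟩ : C) = ⟨c, hc⟩ := by
      apply eq_of_orderOf_two_cyclic
      · rw [← Subgroup.orderOf_coe]; exact h3
      · rw [← Subgroup.orderOf_coe]; exact hc2
    have h5 : φ c = c := congrArg Subtype.val h4
    exact congrArg Subtype.val h5
  have hiso := isolated_of_CI hCI S (c : G) c.2 hN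
  obtain ⟨N, hNn, hodd, hcomm⟩ := ZS G S (c : G) hc2G c.2 hiso
  intro g
  rw [QuotientGroup.eq]
  have h1 := le_oddCore_of_odd hNn hodd (hcomm g)
  have h2 := Subgroup.inv_mem _ h1
  have hci : (c : G)⁻¹ = c := inv_of_orderOf_two hc2G
  have e : ((c : G) * g * (c : G)⁻¹ * g⁻¹)⁻¹ = (g * (c : G) * g⁻¹)⁻¹ * (c : G) := by
    rw [hci]
    have : (g * (c : G) * g⁻¹)⁻¹ = g * (c : G)⁻¹ * g⁻¹ := by group
    rw [this, hci]
    calc ((c : G) * g * (c : G) * g⁻¹)⁻¹ = g * (c : G)⁻¹ * g⁻¹ * (c : G)⁻¹ := by group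
      _ = g * (c : G) * g⁻¹ * (c : G) := by rw [hci]
  rw [← e]
  exact h2

end Cfsg.Agent.Lib.Helper31.ZSCyc
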